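/-
Fixed points in `[G, P]` for a group `P` of prime order: the subgroups `[g, P]`.
-/
import Cfsg.Agent.BG2.P3a

set_option autoImplicit false
set_option linter.unusedSectionVars false

namespace CF.Fx3
open Subgroup Cfsg CF.BG CF.BG2
open scoped commutatorElement

variable {Ω : Type*} [Group Ω] {P G L N X : Subgroup Ω} {g c : Ω}

/-- the subgroup `[g, P]` -/
def Tg (P : Subgroup Ω) (g : Ω) : Subgroup Ω := closure {c | ∃ y ∈ P, c = g⁻¹ * (y * g * y⁻¹)}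

/-- the subgroup generated by the fixed points in the `[g, P]` -/
def Dg (P G : Subgroup Ω) : Subgroup Ω := ⨆ g : G, Tg P g ⊓ 𝐂 P

theorem mem_Tg {y : Ω} (hy : y ∈ P) : g⁻¹ * (y * g * y⁻¹) ∈ Tg P g := subset_closure ⟨y, hy, rfl⟩

theorem Tg_le (h : ∀ y ∈ P, g⁻¹ * (y * g * y⁻¹) ∈ X) : Tg P g ≤ X := by
  rw [Tg, closure_le]; rintro _ ⟨y, hy, rfl⟩; exact h y hy

theorem le_Dg (hg : g ∈ G) : Tg P g ⊓ 𝐂 P ≤ Dg P G :=
  le_iSup (fun g : G => Tg P g ⊓ 𝐂 P) ⟨g, hg⟩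

theorem Dg_le (h : ∀ g ∈ G, Tg P g ⊓ 𝐂 P ≤ X) : Dg P G ≤ X := iSup_le fun g => h g g.2

theorem Dg_mono (h : L ≤ G) : Dg P L ≤ Dg P G := Dg_le fun _ hg => le_Dg (h hg)

theorem Dg_le_cent : Dg P G ≤ 𝐂 P := Dg_le fun _ _ => inf_le_right

theorem Tg_le_comm (hg : g ∈ G) : Tg P g ≤ ⁅G, P⁆ := Tg_le fun y hy => by
  have := commutator_mem_commutator (inv_mem hg) hy
  rwa [commutatorElement_def, inv_inv, mul_assoc, mul_assoc, ← mul_assoc y] at this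

theorem Tg_le_self (n : P ≤ 𝐍 G) (hg : g ∈ G) : Tg P g ≤ G := (Tg_le_comm hg).trans (comm_le_left n)

theorem Dg_le_self (n : P ≤ 𝐍 G) : Dg P G ≤ G :=
  Dg_le fun _ hg => inf_le_left.trans (Tg_le_self n hg)

theorem comm_le_of_Tg (h : ∀ g ∈ G, Tg P g ≤ X) : ⁅G, P⁆ ≤ X := by
  refine commutator_le.2 fun g hg y hy => h _ (inv_mem hg) ?_
  have := mem_Tg (g := g⁻¹) hy
  rwa [inv_inv, ← mul_assoc, ← mul_assoc, ← commutatorElement_def] at this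

theorem norm_Tg : P ≤ 𝐍 (Tg P g) := by
  refine le_norm_of_cj_le fun z hz => cj_le_iff.2 (Tg_le fun y hy => mem_cj_inv.2 ?_)
  have := mul_mem (inv_mem (mem_Tg (g := g) hz)) (mem_Tg (g := g) (mul_mem hz hy))
  convert this using 1; group

theorem Tg_mul (hc : c ∈ 𝐂 P) : Tg P (c * g) = Tg P g := by
  have e : ∀ y ∈ P, (c * g)⁻¹ * (y * (c * g) * y⁻¹) = g⁻¹ * (y * g * y⁻¹) := fun y hy => by
    rw [← mul_assoc y, mem_cent.1 hc y hy]; group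
  exact le_antisymm (Tg_le fun y hy => e y hy ▸ mem_Tg hy) (Tg_le fun y hy => e y hy ▸ mem_Tg hy)

theorem cj_Tg_le (hc : c ∈ 𝐂 P) : cj c (Tg P g) ≤ Tg P (c * g * c⁻¹) := by
  refine cj_le_iff.2 (Tg_le fun y hy => mem_cj_inv.2 ?_)
  have := mem_Tg (g := c * g * c⁻¹) hy
  have e := mem_cent.1 hc y hy
  have e' := mem_cent.1 hc _ (inv_mem hy)
  convert this using 1
  calc c * (g⁻¹ * (y * g * y⁻¹)) * c⁻¹ = c * g⁻¹ * c⁻¹ * (c * y) * g * (c⁻¹ * (c * y⁻¹)) * c⁻¹ := by group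
    _ = _ := by rw [← e, ← e']; group

theorem norm_Dg : G ⊓ 𝐂 P ≤ 𝐍 (Dg P G) := by
  refine le_norm_of_cj_le fun c hc => cj_le_iff.2 (Dg_le fun g hg => cj_le_iff.1 ?_)
  rw [cj_inf, cj_cent, cj_of_cent hc.2]
  exact (inf_le_inf_right _ (cj_Tg_le hc.2)).trans (le_Dg (mul_mem (mul_mem hc.1 hg) (inv_mem hc.1)))

theorem qt_Tg (hg : g ∈ 𝐍 N) (n : P ≤ 𝐍 N) : qt N (Tg P g) = Tg (qt N P) (qe N g) := by
  have e : ∀ y ∈ P, qe N (g⁻¹ * (y * g * y⁻¹)) =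
      (qe N g)⁻¹ * (qe N y * qe N g * (qe N y)⁻¹) := fun y hy => by
    rw [qe_mul (inv_mem hg) (mul_mem (mul_mem (n hy) hg) (inv_mem (n hy))), qe_conj (n hy) hg,
      qe_inv hg]
  have m : ∀ y ∈ P, g⁻¹ * (y * g * y⁻¹) ∈ 𝐍 N := fun y hy =>
    mul_mem (inv_mem hg) (mul_mem (mul_mem (n hy) hg) (inv_mem (n hy)))
  refine le_antisymm ((qt_le_iff (Tg_le m)).2 (Tg_le fun y hy => mem_qp.2 ⟨m y hy, ?_⟩)) ?_
  · rw [e y hy]; exact mem_Tg (qe_mem_qt hy (n hy))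
  · refine Tg_le fun z hz => ?_
    obtain ⟨y, hy, -, rfl⟩ := mem_qt.1 hz
    rw [← e y hy]; exact qe_mem_qt (mem_Tg hy) (m y hy)

variable [Finite Ω]

/-- `g = c k` with `c ∈ C(P)` and `k ∈ [g, P]` -/
theorem exists_fac (n : P ≤ 𝐍 G) (cop : (♯P).Coprime (♯G)) (s : Sol G) (hg : g ∈ G) :
    ∃ c ∈ G ⊓ 𝐂 P, ∃ k ∈ Tg P g, g = c * k := by
  have l := Tg_le_self n hg
  have h1 : cj g⁻¹ P ≤ Tg P g ⊔ P := fun z hz => by
    obtain ⟨y, hy, rfl⟩ := mem_cj_iff.1 hz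
    have := mul_mem (mem_sup_left (T := P) (mem_Tg (g := g) hy)) (mem_sup_right hy)
    convert this using 1; group
  obtain ⟨k, hk, h2⟩ := exists_cj_le_of_le_sup norm_Tg h1
    (by rw [card_cj]; exact coprime_mono cop le_rfl l) (Or.inr (s.mono l))
  rw [cj_cj] at h2
  have h3 : k * g⁻¹ ∈ G ⊓ 𝐍 P := mem_inf.2 ⟨mul_mem (l hk) (inv_mem hg), mem_norm_of_cj_le h2⟩
  have h4 := inf_norm_le_cent n (BG.inf_eq_bot_of_coprime cop) h3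
  exact ⟨_, inv_mem (mem_inf.2 ⟨h3.1, h4⟩), k, hk, by group⟩

theorem comm_Tg (n : P ≤ 𝐍 G) (cop : (♯P).Coprime (♯G)) (s : Sol G) (hg : g ∈ G) :
    ⁅Tg P g, P⁆ = Tg P g := by
  obtain ⟨c, hc, k, hk, e⟩ := exists_fac n cop s hg
  refine le_antisymm (comm_le_left norm_Tg) ?_
  conv_lhs => rw [e, Tg_mul hc.2]
  exact Tg_le_comm hk

theorem Dg_qt_le (cop : (♯P).Coprime (♯G)) (s : Sol G) (hN : N ⊴ G) (nN : P ≤ 𝐍 N) :
    Dg (qt N P) (qt N G) ≤ qt N (Dg P G) := by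
  refine Dg_le fun z hz => ?_
  obtain ⟨g, hg, hn, rfl⟩ := mem_qt.1 hz
  rw [← qt_Tg hn nN, ← qt_inf_cent' nN norm_Tg (coprime_mono cop le_rfl hN.le)
    (Or.inr (s.mono hN.le))]
  exact qt_mono N (le_Dg hg)

/-- a minimal counterexample -/
structure Cx (P G : Subgroup Ω) : Prop where
  pr : (♯P).Prime
  p2 : ♯P ≠ 2
  n : P ≤ 𝐍 G
  cop : (♯P).Coprime (♯G)
  s : Sol G
  per : ⁅G, P⁆ = G
  nle : ¬ G ⊓ 𝐂 P ≤ Dg P G
  sub : ∀ L, L < G → P ≤ 𝐍 L → ⁅L, P⁆ ⊓ 𝐂 P ≤ Dg P G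
  quo : ∀ N, N ⊴ G → N ≠ ⊥ → P ≤ 𝐍 N → G ⊓ 𝐂 P ≤ Dg P G ⊔ N ⊓ 𝐂 P

universe u in
theorem of_cx (hx : ∀ {Ω : Type u} [Group Ω] [Finite Ω] {P G : Subgroup Ω}, ¬ Cx P G) (m : ℕ) :
    ∀ {Ω : Type u} [Group Ω] [Finite Ω] {P G : Subgroup Ω}, ♯G < m → (♯P).Prime → ♯P ≠ 2 →
    P ≤ 𝐍 G → (♯P).Coprime (♯G) → Sol G → ⁅G, P⁆ ⊓ 𝐂 P ≤ Dg P G := by
  induction m with
  | zero => intro Ω _ _ P G h; omega
  | succ m ih =>
    intro Ω _ _ P G hm pr p2 n cop s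
    have sub : ∀ L, L < G → P ≤ 𝐍 L → ⁅L, P⁆ ⊓ 𝐂 P ≤ Dg P G := fun L hL nL =>
      (ih (lt_of_lt_of_le (card_lt hL) (by omega)) pr p2 nL (coprime_mono cop le_rfl hL.le)
        (s.mono hL.le)).trans (Dg_mono hL.le)
    by_cases per : ⁅G, P⁆ = G
    swap
    · rw [← comm_comm_eq n cop (Or.inr s)]
      exact sub _ ((comm_le_left n).lt_of_ne per) (norm_comm_right G P)
    rw [per]
    by_contra nle
    refine hx ⟨pr, p2, n, cop, s, per, nle, sub, fun N hN N1 nN => ?_⟩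
    have cN := coprime_mono cop le_rfl hN.le
    have e : ♯(qt N P) = ♯P := card_qt_of_inf_bot nN (BG.inf_eq_bot_of_coprime cN.symm)
    have h := (ih (lt_of_lt_of_le (card_qt_lt hN N1) (by omega)) (e ▸ pr) (e ▸ p2) (qt_norm N n)
      (coprime_qt N cop) (s.qt N)).trans (Dg_qt_le cop s hN nN)
    have nD := (Dg_le_self n).trans hN.norm
    rw [← qt_comm hN.norm nN, per, ← qt_inf_cent' nN n cN (Or.inr (s.mono hN.le)),
      qt_le_qt_iff (inf_le_left.trans hN.norm) nD, sup_comm] at h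
    rw [← sup_inf_left Dg_le_cent (Or.inl nD)]
    exact le_inf h inf_le_right

end CF.Fx3
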