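/-
Fixed points in `[G, P]`: abelian normal subgroups of a minimal counterexample.
-/
import Cfsg.Agent.Fx3.A

set_option autoImplicit false
set_option linter.unusedSectionVars false

namespace CF.Fx3
open Subgroup Cfsg CF.BG CF.BG2
open scoped commutatorElement

variable {Ω : Type*} [Group Ω] [Finite Ω] {P G L N U V X : Subgroup Ω} {g c : Ω}

/-- the second case for an abelian normal subgroup -/
structure CB (P G U T : Subgroup Ω) : Prop where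
  gen : ∃ k ∈ T, T = Tg P k
  sup : T ⊔ U = G
  inf : T ⊓ U = ⊥
  nc : ¬ T ≤ 𝐂 U
  ab : ∃ r, r.Prime ∧ Abelem r T
  fpf : T ⊓ 𝐂 P = ⊥

theorem cm {W : Subgroup Ω} (l : W ≤ U) (e : ⁅X, U⁆ ≤ W) : X ≤ centMod U W :=
  le_centMod.2 ⟨norm_of_comm_le' ((commutator_mono le_rfl l).trans e), e⟩

namespace Cx
variable (h : Cx P G)
include h

theorem star (hN : N ⊴ G) (nN : P ≤ 𝐍 N) (e : N ⊓ 𝐂 P ≤ Dg P G) : N = ⊥ := by
  by_contra N1
  exact h.nle ((h.quo N hN N1 nN).trans (sup_le le_rfl e))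

theorem cop' (l : L ≤ G) : (♯P).Coprime (♯L) := coprime_mono h.cop le_rfl l

theorem dec (l : L ≤ G) (nL : P ≤ 𝐍 L) : ⁅L, P⁆ ⊔ L ⊓ 𝐂 P = L :=
  comm_sup_inf_cent nL (h.cop' l) (Or.inr (h.s.mono l))

theorem W_cent (hU : U ⊴ G) (nU : P ≤ 𝐍 U) (a : Abel U) :
    (Dg P G ⊓ U ⊔ ⁅U, P⁆) ⊓ 𝐂 P ≤ Dg P G := by
  rw [sup_inf_left (inf_le_left.trans Dg_le_cent)
    (Or.inl (inf_le_right.trans (norm_comm_left U P))), a.comm_inf_cent nU (h.cop' hU.le)]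
  exact sup_le inf_le_left bot_le

theorem C_le (hU : U ⊴ G) (nU : P ≤ 𝐍 U) (a : Abel U) (U1 : U ≠ ⊥) :
    G ⊓ 𝐂 P ≤ centMod U (Dg P G ⊓ U ⊔ ⁅U, P⁆) := by
  have lW : Dg P G ⊓ U ⊔ ⁅U, P⁆ ≤ U := sup_le inf_le_right (comm_le_left nU)
  have nW := a.le_norm lW
  refine cm lW ?_
  conv_lhs => rw [← h.dec hU.le nU]
  refine comm_sup_le' (le_sup_of_le_right (comm_le_right (norm_commutator
    (inf_le_left.trans hU.norm) (inf_le_right.trans (cent_le_norm P))))) (le_sup_of_le_left ?_)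
    ((comm_le_left nU).trans nW) (inf_le_left.trans nW)
  have nD : U ⊓ 𝐂 P ≤ 𝐍 (Dg P G) := (inf_le_inf_right _ hU.le).trans norm_Dg
  have dU := (Dg_le_self h.n).trans hU.norm
  refine (commutator_mono (h.quo U hU U1 nU) le_rfl).trans (comm_sup_le (le_inf (comm_le_left nD)
    ((commutator_mono le_rfl inf_le_left).trans (comm_le_right dU))) ?_
    (norm_inf (le_norm_self _) dU) (norm_inf nD (norm_of_le inf_le_left)))
  rw [der_eq_bot.2 (a.mono inf_le_left)]; exact bot_le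

theorem L_le (hU : U ⊴ G) (nU : P ≤ 𝐍 U) (a : Abel U) (U1 : U ≠ ⊥) (l : L ≤ G) (nL : P ≤ 𝐍 L)
    (ne : L ⊔ U ≠ G) : L ≤ centMod U (Dg P G ⊓ U ⊔ ⁅U, P⁆) := by
  rw [← h.dec l nL]
  refine sup_le (cm (sup_le inf_le_right (comm_le_left nU)) ?_)
    ((inf_le_inf_right _ l).trans (h.C_le hU nU a U1))
  have k := h.sub _ ((sup_le l hU.le).lt_of_ne ne) (norm_sup nL nU)
  have y : ⁅⁅L, P⁆, U⁆ ≤ ⁅L ⊔ U, P⁆ ⊓ U := le_inf
    ((commutator_mono (commutator_mono le_sup_left le_rfl) le_rfl).trans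
      (comm_le_left (le_sup_right.trans (norm_comm_left _ P))))
    (comm_le_right (((comm_le_left nL).trans l).trans hU.norm))
  refine y.trans ?_
  rw [← h.dec (inf_le_right.trans hU.le) (norm_inf (norm_comm_right _ P) nU)]
  exact sup_le (le_sup_of_le_right (commutator_mono inf_le_right le_rfl)) (le_sup_of_le_left
    (le_inf ((inf_le_inf_right _ inf_le_left).trans k) (inf_le_left.trans inf_le_right)))

theorem inf_bot (hU : U ⊴ G) (nU : P ≤ 𝐍 U) (a : Abel U) (hg : g ∈ G) (e : Tg P g ⊔ U = G) :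
    Tg P g ⊓ U = ⊥ :=
  h.star ⟨inf_le_right.trans hU.le, e.ge.trans (sup_le (norm_inf (le_norm_self _)
    ((Tg_le_self h.n hg).trans hU.norm)) (a.le_norm inf_le_right))⟩ (norm_inf norm_Tg nU)
    ((inf_le_inf_right _ inf_le_left).trans (le_Dg hg))

theorem dich (hU : U ⊴ G) (nU : P ≤ 𝐍 U) (a : Abel U) (U1 : U ≠ ⊥) :
    (U ≤ 𝐂 G ∧ U ≤ 𝐂 P ∧ Dg P G ⊓ U = ⊥) ∨ ∃ T, CB P G U T := by
  have lW : Dg P G ⊓ U ⊔ ⁅U, P⁆ ≤ U := sup_le inf_le_right (comm_le_left nU)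
  have nW : P ≤ 𝐍 (Dg P G ⊓ U ⊔ ⁅U, P⁆) := norm_sup
    (norm_inf (norm_of_cent' Dg_le_cent) nU) (norm_comm_right U P)
  by_cases hM : G ≤ centMod U (Dg P G ⊓ U ⊔ ⁅U, P⁆)
  · have e := h.star ⟨lW.trans hU.le, (le_centMod.1 hM).1⟩ nW (h.W_cent hU nU a)
    rw [e, centMod_bot] at hM
    exact Or.inl ⟨cent_symm hM, comm_eq_bot.1 (eq_bot_mono e le_sup_right),
      eq_bot_mono e le_sup_left⟩
  right
  obtain ⟨g, hg, hT⟩ : ∃ g ∈ G, ¬ Tg P g ≤ centMod U (Dg P G ⊓ U ⊔ ⁅U, P⁆) := by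
    by_contra! c
    exact hM (h.per.ge.trans (comm_le_of_Tg c))
  have lT := Tg_le_self h.n hg
  have e : Tg P g ⊔ U = G := by
    by_contra ne
    exact hT (h.L_le hU nU a U1 lT norm_Tg ne)
  have i := h.inf_bot hU nU a hg e
  have nc : ¬ Tg P g ≤ 𝐂 U := fun c => hT (cm lW (by rw [comm_eq_bot.2 c]; exact bot_le))
  have m : MinN (Tg P g) (Tg P g ⊔ P) := by
    refine ⟨fun b => nc (b.le.trans bot_le), sup_le (le_norm_self _) norm_Tg, fun N hN N1 nN => ?_⟩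
    by_contra ne
    have nT := le_sup_left.trans nN
    have nP := le_sup_right.trans nN
    have h1 : N ⊔ U ≠ G := fun e' => ne (le_antisymm hN (by
      have := sup_inf_left hN (Or.inl ((hN.trans lT).trans hU.norm) : _ ∨ U ≤ 𝐍 N)
      rw [e', inf_comm U, i, sup_bot_eq, inf_eq_right.2 lT] at this
      exact this.le))
    have h2 := (le_centMod.1 (h.L_le hU nU a U1 (hN.trans lT) nP h1)).2
    have h3 : ⁅N, U⁆ = ⊥ := h.star ⟨(h2.trans lW).trans hU.le, e.ge.trans (sup_le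
      (norm_commutator nT (lT.trans hU.norm)) (norm_comm_right N U))⟩ (norm_commutator nP nU)
      ((inf_le_inf_right _ h2).trans (h.W_cent hU nU a))
    exact N1 (h.star ⟨hN.trans lT, e.ge.trans (sup_le nT (norm_of_cent' (comm_eq_bot.1 h3)))⟩ nP
      ((inf_le_inf_right _ hN).trans (le_Dg hg)))
  obtain ⟨r, hr, ab⟩ := m.exists_abelem (h.s.mono lT)
  obtain ⟨c, hc, k, hk, ek⟩ := exists_fac h.n h.cop h.s hg
  refine ⟨_, ⟨k, hk, by conv_lhs => rw [ek, Tg_mul hc.2]⟩, e, i, nc, ⟨r, hr, ab⟩, ?_⟩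
  have := ab.abel.comm_inf_cent norm_Tg (h.cop' lT)
  rwa [comm_Tg h.n h.cop h.s hg] at this

theorem cover {T : Subgroup Ω} {q r : ℕ} {k : Ω} (hV : V ⊴ G) (nV : P ≤ 𝐍 V) (a : Abelem q V)
    (b : CB P G V T) (t : Abelem r T) (qr : q ≠ r) (hk : k ∈ T) (ek : T = Tg P k) :
    V ≤ cj k⁻¹ (V ⊓ 𝐂 P) ⊔ V ⊓ 𝐂 P := by
  intro v hv
  have lT : T ≤ G := le_sup_left.trans b.sup.le
  have nT : P ≤ 𝐍 T := by rw [ek]; exact norm_Tg
  have kv : k * v ∈ G := mul_mem (lT hk) (hV.le hv)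
  have lT' := Tg_le_self h.n kv
  have e1 : Tg P (k * v) ⊔ V = G := by
    refine le_antisymm (sup_le lT' hV.le) (b.sup.ge.trans (sup_le ?_ le_sup_right))
    rw [sup_comm, ← qt_le_qt_iff (lT.trans hV.norm) (lT'.trans hV.norm), qt_Tg (hV.norm kv) nV,
      qe_mul (hV.norm (lT hk)) (le_norm_self V hv), qe_of_mem hv, mul_one,
      ← qt_Tg (hV.norm (lT hk)) nV, ← ek]
  have i1 := h.inf_bot hV nV a.abel kv e1
  have sd : SDProd V T G := SDProd.of_normal hV ((sup_comm V T).trans b.sup) ((inf_comm V T).trans b.inf)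
  have sd' : SDProd V (Tg P (k * v)) G :=
    SDProd.of_normal hV ((sup_comm V _).trans e1) ((inf_comm V _).trans i1)
  have s1 : Syl r T G := sd.hall_right (a.pi.of_single_ne qr) t.pi
  have s2 : Syl r (Tg P (k * v)) G := s1.of_card lT'
    (Nat.eq_of_mul_eq_mul_left (card_pos' V) (sd'.card.trans sd.card.symm))
  obtain ⟨c, hc, ec⟩ := s1.syl_conj_inv s2 h.n h.cop (Or.inr h.s) nT norm_Tg
  have cV : c ∈ V ⊓ 𝐂 P := by
    rw [← sd.sup, sup_inf_cent_of_inf_bot nV nT (Or.inr sd.norm) sd.inf, b.fpf, sup_bot_eq] at hc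
    exact hc
  have w : v * c ∈ V := mul_mem hv cV.1
  have hw : v * c ∈ cj k⁻¹ (V ⊓ 𝐂 P) := by
    refine mem_cj_inv.2 (mem_inf.2 ⟨conj_mem_of_norm (hV.norm (lT hk)) w, mem_cent.2 fun y hy => ?_⟩)
    have m1 := mem_Tg (g := k * v) hy
    rw [ec, mem_cj] at m1
    have m2 : k⁻¹ * (y * k * y⁻¹) ∈ T := ek.ge (mem_Tg hy)
    have zV : k⁻¹ * y * k ∈ 𝐍 V :=
      mul_mem (mul_mem (inv_mem (hV.norm (lT hk))) (nV hy)) (hV.norm (lT hk))
    have m3 := mul_mem (inv_mem w) (conj_mem_of_norm zV w)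
    have m4 := mul_mem m1 (inv_mem m2)
    have e' := mem_cent.1 hc.2 _ (inv_mem hy)
    have e2 : c⁻¹ * ((k * v)⁻¹ * (y * (k * v) * y⁻¹)) * c * (k⁻¹ * (y * k * y⁻¹))⁻¹ =
        (v * c)⁻¹ * (k⁻¹ * y * k * (v * c) * (k⁻¹ * y * k)⁻¹) :=
      calc _ = c⁻¹ * ((k * v)⁻¹ * (y * (k * v))) * (y⁻¹ * c) * (k⁻¹ * (y * k * y⁻¹))⁻¹ := by group
        _ = _ := by rw [e']; group
    rw [e2] at m4
    have e3 := eq_one_of_mem_bot b.inf (mem_inf.2 ⟨m4, m3⟩)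
    calc y * (k * (v * c) * k⁻¹) = k * (v * c) * ((v * c)⁻¹ *
          (k⁻¹ * y * k * (v * c) * (k⁻¹ * y * k)⁻¹)) * k⁻¹ * y := by group
      _ = _ := by rw [e3]; group
  rw [← mul_inv_cancel_right v c]
  exact mul_mem (mem_sup_left hw) (mem_sup_right (inv_mem cV))

theorem min_cent (m : MinN V (G ⊔ P)) (l : V ≤ G) : V ≤ 𝐂 G ∧ V ≤ 𝐂 P ∧ Dg P G ⊓ V = ⊥ := by
  have hV : V ⊴ G := ⟨l, le_sup_left.trans m.norm⟩
  have nV := le_sup_right.trans m.norm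
  obtain ⟨q, hq, a⟩ := m.exists_abelem (h.s.mono l)
  refine (h.dich hV nV a.abel m.ne_bot).resolve_right ?_
  rintro ⟨T, b⟩
  obtain ⟨r, hr, t⟩ := b.ab
  obtain ⟨k, hk, ek⟩ := b.gen
  have lT : T ≤ G := le_sup_left.trans b.sup.le
  have nT : P ≤ 𝐍 T := by rw [ek]; exact norm_Tg
  have qr : q ≠ r := by
    rintro rfl
    exact b.nc (lT.trans (m.cent_of_pi a.pi (b.sup ▸ t.pi.sup a.pi (Or.inl (lT.trans hV.norm)))
      hV.norm (sup_le (le_norm_self G) h.n)))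
  have e : V ⊓ 𝐂 T = ⊥ := (m.eq_bot_or inf_le_left (sup_le (b.sup.ge.trans (sup_le
    (norm_inf_cent (lT.trans hV.norm) (le_norm_self T)) (a.abel.le_norm inf_le_left)))
    (norm_inf_cent nV nT))).resolve_right fun e => b.nc (cent_symm (e.ge.trans inf_le_right))
  have w := wielandt (reg_of_prime h.pr b.fpf) nT t.abel.sol a.abel.sol
    (sup_le (lT.trans hV.norm) nV) ((Nat.Coprime.mul_left
      (t.pi.coprime (a.pi.of_single_ne qr)) (h.cop' l)).of_dvd_left (card_sup_dvd (Or.inr nT)))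
  rw [e, eq_bot_mono e (inf_le_inf_left V (cent_anti le_sup_left)), Subgroup.card_bot, one_pow,
    one_mul, mul_one] at w
  have lc : cj k⁻¹ (V ⊓ 𝐂 P) ≤ V := cj_le_of_norm (inv_mem (hV.norm (lT hk))) inf_le_left
  have u := (card_le (h.cover hV nV a b t qr hk ek)).trans (Nat.le_of_dvd
    (Nat.mul_pos (card_pos' _) (card_pos' _))
    (card_sup_dvd (Or.inl (lc.trans (a.abel.le_norm inf_le_left)))))
  rw [card_cj, w, ← pow_two] at u
  have h3 : 1 < ♯(V ⊓ 𝐂 P) := one_lt_card.2 fun e => m.ne_bot (by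
    rwa [e, Subgroup.card_bot, one_pow, card_eq_one'] at w)
  have := (Nat.pow_le_pow_iff_right h3).1 u
  exact h.p2 (le_antisymm this h.pr.two_le)

end Cx
end CF.Fx3
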