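/-
Fixed points in `[G, P]` are generated by the fixed points in the `[g, P]`.
-/
import Cfsg.Agent.Fx3.B

set_option autoImplicit false
set_option linter.unusedSectionVars false

namespace CF.Fx3
open Subgroup Cfsg CF.BG CF.BG2
open scoped commutatorElement

variable {Ω : Type*} [Group Ω] [Finite Ω] {P G L N T U V X : Subgroup Ω} {g c : Ω}

theorem fpf_of_comm {r : ℕ} (a : Abel U) (t : PiGrp {r} T) (n : T ≤ 𝐍 U) (e : U ≤ ⁅U, T⁆) :
    U ⊓ 𝐂 T = ⊥ := by
  have hO := a.nil.hall_O {r}ᶜ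
  have nO := (O_normal {r}ᶜ U).norm
  have nT : T ≤ 𝐍 (𝐎 {r}ᶜ U) := le_norm_O _ n
  have e1 : qt (𝐎 {r}ᶜ U) U = ⊥ := by
    by_contra ne
    have := (t.qt _).comm_lt ((piGrp_qt_iff nO).2 hO.idx.of_compl_compl) (qt_norm _ n) ne
    rw [← qt_comm nO nT] at this
    exact this.not_ge (qt_mono _ e)
  have k : PiGrp {r}ᶜ U := (O_pi _ U).le ((qt_eq_bot nO).1 e1)
  exact eq_bot_mono (a.comm_inf_cent n (t.coprime k)) (inf_le_inf_right _ e)

namespace Cx
variable (h : Cx P G)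
include h

theorem der_le_min (m : MinN V (G ⊔ P)) (l : V ≤ G) : ⁅G, G⁆ ≤ V := by
  obtain ⟨v1, v2, v3⟩ := h.min_cent m l
  have nG : G ⊔ P ≤ 𝐍 G := sup_le (le_norm_self G) h.n
  have lt : V < G := l.lt_of_ne fun e => m.ne_bot (by
    rw [e] at v2 ⊢
    rw [← h.per]; exact comm_eq_bot.2 v2)
  obtain ⟨U, lU, c⟩ := exists_chief_above ⟨le_sup_of_le_left l, m.norm⟩ ⟨le_sup_left, nG⟩ lt
  obtain ⟨s, -, ab⟩ := c.exists_abelem (h.s.sup' (cyc_of_prime h.pr).sol h.n)
  have dU := (abel_qt_iff c.normalVU.norm).1 ab.abel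
  have hU : U ⊴ G := ⟨lU, le_sup_left.trans c.normal.norm⟩
  have nU := le_sup_right.trans c.normal.norm
  have hV : V ⊴ G := ⟨l, le_sup_left.trans m.norm⟩
  by_cases a : Abel U
  · rcases h.dich hU nU a (ne_bot_mono m.ne_bot c.lt.le) with ⟨-, u2, u3⟩ | ⟨T, b⟩
    · have h1 : U ≤ V ⊔ Dg P G := (le_inf lU u2).trans
        ((h.quo V hV m.ne_bot (le_sup_right.trans m.norm)).trans
          (sup_le le_sup_right (le_sup_of_le_left inf_le_left)))
      have h2 := sup_inf_left c.lt.le (Or.inr ((Dg_le_self h.n).trans hV.norm) : V ≤ 𝐍 _ ∨ _)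
      rw [u3, sup_bot_eq, inf_eq_right.2 h1] at h2
      exact absurd h2 c.lt.ne'
    obtain ⟨r, -, t⟩ := b.ab
    have lT : T ≤ G := le_sup_left.trans b.sup.le
    have n0 : G ⊔ P ≤ 𝐍 ⁅U, G⁆ := norm_commutator c.normal.norm nG
    have l0 : ⁅U, G⁆ ≤ U := comm_le_left hU.norm
    have g0 := le_sup_left.trans n0
    rcases c.eq_or (W := V ⊔ ⁅U, G⁆) le_sup_left (sup_le c.lt.le l0) (norm_sup m.norm n0) with
      e | e
    · refine le_trans ?_ (le_sup_right.trans e.le)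
      conv_lhs => rw [← b.sup]
      refine comm_sup_le (comm_sup_le' ?_ ?_ (lT.trans g0) (lU.trans g0))
        (commutator_mono le_rfl b.sup.le) (lT.trans g0) (lU.trans g0)
      · rw [der_eq_bot.2 t.abel]; exact bot_le
      · rw [commutator_comm]; exact commutator_mono le_rfl lT
    have nT := lT.trans g0
    have e1 : ⁅U, G⁆ ≤ ⁅⁅U, G⁆, T⁆ := by
      conv_lhs => rw [← e, comm_sup_cent v1 (l.trans g0)]
      refine (commutator_mono le_rfl b.sup.ge).trans (comm_sup_le' le_rfl ?_ (norm_comm_right _ T)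
        (a.le_norm ((comm_le_left nT).trans l0)))
      rw [comm_eq_bot.2 (a.cent l0 le_rfl)]; exact bot_le
    have e2 := fpf_of_comm (a.mono l0) t.pi nT e1
    obtain ⟨M, lM, mM⟩ := exists_minN (K := ⁅U, G⁆)
      (fun e => b.nc (lT.trans (comm_eq_bot'.1 e))) n0
    exact absurd (eq_bot_mono e2 (le_inf lM
      ((h.min_cent mM ((lM.trans l0).trans lU)).1.trans (cent_anti lT)))) mM.ne_bot
  by_cases e : U = G
  · exact e ▸ dU
  have k1 : ⁅U, P⁆ ⊓ V = ⊥ := eq_bot_mono v3 (le_inf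
    ((inf_le_inf_left _ v2).trans (h.sub U (lU.lt_of_ne e) nU)) inf_le_right)
  have lK := comm_le_left nU
  have k2 : ⁅U, P⁆ ≤ 𝐂 U := comm_eq_bot.1 (eq_bot_mono k1 (le_inf
    (comm_le_left (norm_comm_left U P)) ((commutator_mono lK le_rfl).trans dU)))
  have k3 := (c.eq_or (W := U ⊓ 𝐂 U) (le_inf c.lt.le (v1.trans (cent_anti lU))) inf_le_left
    (norm_inf_cent c.normal.norm c.normal.norm)).resolve_right fun e => a (e.ge.trans inf_le_right)
  have k4 : P ≤ 𝐂 U := comm_eq_bot'.1 (eq_bot_mono k1 (le_inf le_rfl ((le_inf lK k2).trans k3.le)))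
  exact absurd (lU.trans (h.per.ge.trans ((commutator_mono le_rfl k4).trans
    (comm_le_right (norm_cent hU.norm))))) a

theorem comm_conj (hV : V ⊴ G) (nV : P ≤ 𝐍 V) (v1 : V ≤ 𝐂 G) (v2 : V ≤ 𝐂 P) (v3 : Dg P G ⊓ V = ⊥)
    (d : ⁅G, G⁆ ≤ V) (hg : g ∈ G) {x : Ω} (hx : x ∈ P) :
    g * (x * g * x⁻¹) = x * g * x⁻¹ * g := by
  have cV : G ⊓ 𝐂 P ≤ V := by
    have := ((abel_qt_iff hV.norm).2 d).comm_inf_cent (qt_norm V h.n) (coprime_qt V h.cop)
    rwa [← qt_comm hV.norm nV, h.per, ← qt_inf_cent' nV h.n (h.cop' hV.le)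
      (Or.inr (h.s.mono hV.le)), qt_eq_bot (inf_le_left.trans hV.norm)] at this
  have lT := Tg_le_self h.n hg
  have a : Abel (Tg P g) := der_eq_bot.1 (eq_bot_mono v3 (le_inf
    ((le_inf (der_le _) (((der_mono lT).trans d).trans v2)).trans (le_Dg hg))
    ((der_mono lT).trans d)))
  obtain ⟨c, hc, k, hk, e⟩ := exists_fac h.n h.cop h.s hg
  have t := mem_Tg (g := g) hx
  have e1 : Commute g (g⁻¹ * (x * g * x⁻¹)) := by
    generalize g⁻¹ * (x * g * x⁻¹) = u at t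
    rw [e]
    exact Commute.mul_left (mem_cent.1 (v1 (cV hc)) u (lT t)).symm (a.mul_comm hk t)
  have := (Commute.refl g).mul_right e1
  rwa [mul_inv_cancel_left] at this

theorem false : False := by
  have nG : G ⊔ P ≤ 𝐍 G := sup_le (le_norm_self G) h.n
  obtain ⟨V, l, m⟩ := exists_minN (K := G)
    (fun e => h.nle (inf_le_left.trans (e.le.trans bot_le))) nG
  obtain ⟨v1, v2, v3⟩ := h.min_cent m l
  have d := h.der_le_min m l
  have cc := fun g hg x hx => h.comm_conj (g := g) (x := x) ⟨l, le_sup_left.trans m.norm⟩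
    (le_sup_right.trans m.norm) v1 v2 v3 d hg hx
  obtain ⟨x, hx, x1⟩ := exists_mem_ne_one (ne_bot_of_prime_card h.pr)
  have x2 : x * x ≠ 1 := fun e => h.p2 ((Nat.prime_dvd_prime_iff_eq Nat.prime_two h.pr).1
    (by rw [← orderOf_eq_prime (p := 2) ((pow_two x).trans e) x1]; exact orderOf_dvd_card' hx)).symm
  have cj1 : ∀ a ∈ G, x * a * x⁻¹ ∈ G := fun a ha => conj_mem_of_norm (h.n hx) ha
  have pol : ∀ a ∈ G, ∀ b ∈ G, ⁅b, x * a * x⁻¹⁆ = ⁅x * b * x⁻¹, a⁆ := fun a ha b hb => by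
    have ea := cc a ha x hx
    have eb := cc b hb x hx
    have eab := cc _ (mul_mem ha hb) x hx
    rw [show x * (a * b) * x⁻¹ = x * a * x⁻¹ * (x * b * x⁻¹) by group] at eab
    have ha' := cj1 a ha
    have hb' := cj1 b hb
    generalize x * a * x⁻¹ = a' at *
    generalize x * b * x⁻¹ = b' at *
    have z1 := mem_cent.1 (v1 (d (commutator_mem_commutator hb ha'))) a ha
    have z2 := mem_cent.1 (v1 (d (commutator_mem_commutator hb' ha))) a' ha'
    have f1 : a * b * (a' * b') = ⁅b, a'⁆ * (a * a' * (b * b')) :=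
      calc _ = a * ⁅b, a'⁆ * (a' * b * b') := by rw [commutatorElement_def]; group
        _ = _ := by rw [z1]; group
    have f2 : a' * b' * (a * b) = ⁅b', a⁆ * (a * a' * (b * b')) :=
      calc _ = a' * ⁅b', a⁆ * (a * b' * b) := by rw [commutatorElement_def]; group
        _ = _ := by rw [z2, ea, eb]; group
    exact mul_right_cancel (f1.symm.trans (eab.trans f2))
  have key : x * x ∈ centMod G (𝐂 G) := by
    refine mem_centMod.2 ⟨norm_cent h.n (mul_mem hx hx), fun a ha => mem_cent.2 fun u hu => ?_⟩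
    have hb := conj_mem_of_norm' (h.n hx) (conj_mem_of_norm' (le_norm_self G ha) (inv_mem hu))
    have e1 := pol a ha _ hb
    have e2 := mem_cent.1 (v2 (d (commutator_mem_commutator hb (cj1 a ha)))) x hx
    rw [← mul_inv_eq_iff_eq_mul] at e2
    rw [← e2, commutatorElement_def, commutatorElement_def] at e1
    rw [commutatorElement_def]
    have e3 := congrArg (fun t => (a⁻¹ * u⁻¹ * a)⁻¹ * t * (x * x * a * (x * x)⁻¹ * a⁻¹)) e1
    calc _ = _ := by group
      _ = _ := e3.symm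
      _ = _ := by group
  have k := (le_centMod.1 ((zpowers_eq_of_prime h.pr (mul_mem hx hx) x2).ge.trans
    (zpowers_le.2 key))).2
  rw [commutator_comm, h.per] at k
  have := Abel.comm_inf_cent k h.n h.cop
  rw [h.per] at this
  exact h.nle (this.le.trans bot_le)

end Cx

theorem main (pr : (♯P).Prime) (p2 : ♯P ≠ 2) (n : P ≤ 𝐍 G) (c : (♯P).Coprime (♯G)) (s : Sol G) :
    ⁅G, P⁆ ⊓ 𝐂 P ≤ Dg P G :=
  of_cx (fun h => h.false) _ (Nat.lt_succ_self _) pr p2 n c s

end CF.Fx3
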