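/-
The second Fitting subgroup and its `p`-local form.
-/
import Cfsg.Agent.Fx3.C
import Cfsg.Agent.Loc.Misc2

set_option autoImplicit false
set_option linter.unusedSectionVars false

namespace CF.Fx3
open Subgroup Cfsg CF.BG CF.BG2
open scoped commutatorElement

variable {G : Type*} [Group G] [Finite G] {G' : Type*} [Group G'] [Finite G']
  {E H K L P Q X Y Z : Subgroup G} {p q : ℕ} {x : G}

/-- the second Fitting subgroup -/
def F2s (K : Subgroup G) : Subgroup G := qp (𝐅 K) (𝐅 (qt (𝐅 K) K))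

theorem F2s_normal (K : Subgroup G) : F2s K ⊴ K := (F_normal _).qp_of_qt (F_normal K)

theorem F2s_nil (K : Subgroup G) : Nil (qt (𝐅 K) (F2s K)) := by rw [F2s, qt_qp]; exact F_nil _

theorem le_F2s (y : Y ⊴ K) (l : L ⊴ K) (ny : Nil Y) (nl : Nil (qt Y L)) : L ≤ F2s K := by
  have n : L ≤ 𝐍 (𝐅 K) := l.le.trans (F_normal K).norm
  exact (qt_le_iff n).1 (le_F (l.qt _) (nl.qt_mono (l.le.trans y.norm) n
    (inf_le_left.trans (le_F y ny))))

theorem inf_F2s_le (h : H ≤ K) : H ⊓ F2s K ≤ F2s H := by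
  have n : H ⊓ F2s K ≤ 𝐍 (𝐅 K) := (inf_le_left.trans h).trans (F_normal K).norm
  have y := (F_normal K).inf_left h
  exact le_F2s y ((F2s_normal K).inf_left h) ((F_nil K).mono inf_le_right)
    (((F2s_nil K).mono (qt_mono _ inf_le_right)).qt_mono n (inf_le_left.trans y.norm)
      (le_inf (inf_le_right.trans inf_le_left) inf_le_left))

theorem F2s_le_of_normal (h : H ⊴ K) : F2s H ≤ F2s K := by
  refine le_F2s h.F ⟨(F2s_normal H).le.trans h.le, fun g hg => cj_eq_self.1 ?_⟩ (F_nil H) (F2s_nil H)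
  have n : g ∈ 𝐍 (𝐅 H) := h.F.norm hg
  rw [F2s, ← qp_cj n, cj_F, ← qt_cj n, cj_of_norm (h.norm hg)]

theorem map_F2s_le (K : Subgroup G) (f : G →* G') : (F2s K).map f ≤ F2s (K.map f) := by
  refine le_F2s ((F_normal K).map f) ((F2s_normal K).map f) ((F_nil K).map f) ?_
  have n := (F2s_normal K).le.trans (F_normal K).norm
  obtain ⟨m, e⟩ := (nil_qt_iff n).1 (F2s_nil K)
  exact (nil_qt_iff (map_norm n f)).2 ⟨m, by rw [← map_lowerCentralSeries]; exact map_mono e⟩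

theorem mem_F2s_of_map {f : G →* G'} (hf : Function.Injective f) (h : f x ∈ F2s (K.map f)) :
    x ∈ F2s K := by
  obtain ⟨L, l, e⟩ := exists_map_of_le (F2s_normal (K.map f)).le
  have nl : L ⊴ K := (normalIn_map_iff hf).1 (e ▸ F2s_normal _)
  have n := (F2s_normal (K.map f)).le.trans (F_normal _).norm
  obtain ⟨m, e'⟩ := (nil_qt_iff n).1 (F2s_nil _)
  rw [← e, ← map_lowerCentralSeries, ← map_F K hf, map_le_map_iff_of_injective hf] at e'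
  rw [← e, mem_map_iff_mem hf] at h
  exact le_F2s (F_normal K) nl (F_nil K) ((nil_qt_iff (l.trans (F_normal K).norm)).2 ⟨m, e'⟩) h

theorem mem_F2s_top [h : (fittingSubgroup G).Normal] : x ∈ F2s (⊤ : Subgroup G) ↔
    x ∈ (fittingSubgroup (G ⧸ fittingSubgroup G)).comap (QuotientGroup.mk' (fittingSubgroup G)) := by
  have s := QuotientGroup.mk'_surjective (fittingSubgroup G)
  constructor
  · intro hx
    have n := (F2s_normal (⊤ : Subgroup G)).le.trans (F_normal _).norm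
    obtain ⟨m, e⟩ := (nil_qt_iff n).1 (F2s_nil ⊤)
    rw [← F_top (G := G ⧸ fittingSubgroup G)]
    refine le_F (K := (F2s ⊤).map (QuotientGroup.mk' _)) ?_ (nil_iff_lcs.2 ⟨m, ?_⟩) (mem_map_of_mem _ hx)
    · rw [← map_top_of_surjective _ s]; exact (F2s_normal ⊤).map _
    · rw [← map_lowerCentralSeries, Subgroup.map_eq_bot_iff, QuotientGroup.ker_mk']
      exact e.trans F_top.le
  · intro hx
    obtain ⟨m, e⟩ := nil_iff_lcs.1 (F_nil (⊤ : Subgroup (G ⧸ fittingSubgroup G)))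
    rw [F_top] at e
    have : (fittingSubgroup (G ⧸ fittingSubgroup G)).Normal := by
      rw [← F_top (G := G ⧸ fittingSubgroup G)]; exact normalIn_top.1 (F_normal _)
    refine le_F2s (F_normal ⊤) (normalIn_top.2 (Normal.comap this _)) (F_nil _)
      ((nil_qt_iff (le_top.trans (F_normal _).norm)).2 ⟨m, ?_⟩) hx
    refine le_trans ?_ (F_top.trans (QuotientGroup.ker_mk' (fittingSubgroup G)).symm).ge
    rw [← Subgroup.map_eq_bot_iff, map_lowerCentralSeries, map_comap_eq_self_of_surjective s, e]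

/-- `O_{p'}(F(K))` -/
def Yk (p : ℕ) (K : Subgroup G) : Subgroup G := 𝐎 {p}ᶜ (𝐅 K)

/-- `O_p(K mod O_{p'}(F(K)))` -/
def Lk (p : ℕ) (K : Subgroup G) : Subgroup G := qp (Yk p K) (𝐎 {p} (qt (Yk p K) K))

theorem Yk_normal (p : ℕ) (K : Subgroup G) : Yk p K ⊴ K := (F_normal K).O _

theorem Yk_le : Yk p K ≤ K := (Yk_normal p K).le

theorem Yk_nil : Nil (Yk p K) := (F_nil K).mono (O_le _ _)

theorem Yk_pi : PiGrp {p}ᶜ (Yk p K) := O_pi _ _

theorem le_Yk (h : X ≤ 𝐅 K) (k : PiGrp {p}ᶜ X) : X ≤ Yk p K := (F_nil K).le_O h k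

theorem Lk_normal (p : ℕ) (K : Subgroup G) : Lk p K ⊴ K := (O_normal _ _).qp_of_qt (Yk_normal p K)

theorem Lk_le : Lk p K ≤ K := (Lk_normal p K).le

theorem Yk_le_Lk : Yk p K ≤ Lk p K := le_qp _

theorem Lk_idx : PiNat {p} ((Yk p K).relIndex (Lk p K)) := by rw [Lk, relIndex_qp]; exact O_pi _ _

theorem le_Yk_of_le_Lk (h : X ≤ Lk p K) (k : PiGrp {p}ᶜ X) : X ≤ Yk p K :=
  k.le_of_relIndex h (Lk_le.trans (Yk_normal p K).norm) Lk_idx.compl_compl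

theorem le_O_of_le_Yk (h : X ≤ Yk p K) (k : PiGrp {q} X) : X ≤ 𝐎 {q} K :=
  le_O_of_le_F (h.trans (O_le _ _)) k

theorem O_le_Yk (h : q ≠ p) : 𝐎 {q} K ≤ Yk p K := le_Yk (O_le_F q K) ((O_pi _ _).of_single_ne h)

theorem cj_Yk (g : G) (p : ℕ) (K : Subgroup G) : cj g (Yk p K) = Yk p (cj g K) := by
  rw [Yk, cj_O, cj_F, Yk]

theorem le_Lk (l : L ⊴ K) (i : PiNat {p} ((Yk p K).relIndex L)) : L ≤ Lk p K := by
  have n := l.le.trans (Yk_normal p K).norm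
  exact (qt_le_iff n).1 (le_O (l.qt _) ((piGrp_qt_iff n).2 i))

theorem cj_Lk_le (g : G) (p : ℕ) (K : Subgroup G) : cj g (Lk p K) ≤ Lk p (cj g K) :=
  le_Lk ((Lk_normal p K).cj g) (by rw [← cj_Yk, relIndex_cj]; exact Lk_idx)

theorem mem_Lk (h : x ∈ F2s K) (e : PiElt {p} x) : x ∈ Lk p K := by
  have nF := (F_normal K).norm
  have n : F2s K ≤ 𝐍 (𝐅 K) := (F2s_normal K).le.trans nF
  refine le_Lk (L := qp (𝐅 K) (𝐎 {p} (qt (𝐅 K) (F2s K))))
    ((((F2s_normal K).qt _).O _).qp_of_qt (F_normal K)) ?_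
    (mem_qp.2 ⟨n h, (F2s_nil K).mem_O (qe_mem_qt h (n h)) (e.qe (n h))⟩)
  rw [Yk, ← relIndex_mul_relIndex _ _ _ (O_le _ _) (le_qp _), relIndex_qp]
  exact ((F_nil K).hall_O {p}ᶜ).idx.of_compl_compl.mul (O_pi _ _)

/-- a `p'`-subgroup normalized by `P ≤ L_K` -/
theorem comm_le_Yk (h : P ≤ Lk p K) (l : Q ≤ K) (k : PiGrp {p}ᶜ Q) (n : P ≤ 𝐍 Q) :
    ⁅Q, P⁆ ≤ Yk p K :=
  le_Yk_of_le_Lk ((commutator_mono l h).trans (comm_le_right (Lk_normal p K).norm))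
    (k.le (comm_le_left n))

theorem exists_cj_pi (h : P ≤ Lk p K) (h' : Q ≤ Lk p K) (k : PiGrp {p} P) (k' : PiGrp {p} Q) :
    ∃ t ∈ Yk p K, PiGrp {p} (P ⊔ cj t Q) := by
  obtain ⟨S, s, l⟩ := exists_syl_le h k
  have y : Hall {p}ᶜ (Yk p K) (Lk p K) := ⟨Yk_le_Lk, Yk_pi, Lk_idx.compl_compl⟩
  obtain ⟨t, ht, e⟩ := exists_cj_le_of_le_sup (A := S) (K := Yk p K)
    ((s.le.trans Lk_le).trans (Yk_normal p K).norm) (h'.trans (y.sup_eq s.compl_compl).ge)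
    (PiNat.coprime k' Yk_pi) (Or.inl k'.sol)
  exact ⟨t, ht, s.pi.le (sup_le l e)⟩

theorem le_Yk_of_cent (h : E ≤ Lk p K) (k : PiGrp {p} E) (c : 𝐂 E ≤ K) (z : Z ⊴ 𝐂 E)
    (k' : PiGrp {p}ᶜ Z) (nl : Nil (Yk p K ⊔ Z)) : Z ≤ Yk p K := by
  set Y := Yk p K
  have y : Y ⊴ K := Yk_normal p K
  have zK : Z ≤ K := z.le.trans c
  have eK : E ≤ K := h.trans Lk_le
  have cop : (♯E).Coprime (♯Y) := PiNat.coprime k Yk_pi
  have fx : ∀ H, H ⊴ K → qt Y H ⊓ 𝐂 (qt Y E) ≤ 𝐍 (qt Y Z) := fun H hH => by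
    rw [← qt_inf_cent' (eK.trans y.norm) (eK.trans hH.norm) cop (Or.inl k.sol)]
    exact qt_norm _ (inf_le_right.trans z.norm)
  have eL : qt Y (Lk p K) = 𝐎 {p} (qt Y K) := qt_qp _
  have pL : PiGrp {p} (qt Y (Lk p K)) := eL ▸ O_pi _ _
  have nL : qt Y K ≤ 𝐍 (qt Y (Lk p K)) := ((Lk_normal p K).qt Y).norm
  have ce : qt Y Z ≤ 𝐂 (qt Y E) := qt_cent _ z.le
  have c1 : qt Y Z ≤ 𝐂 (qt Y (Lk p K)) := by
    refine cent_of_pxq (k.qt Y) pL (k'.qt Y) (cent_symm ce) ((qt_mono _ eK).trans nL)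
      ((qt_mono _ zK).trans nL) (pL.inf_left.cent_of_norm (k'.qt Y) (fx _ (Lk_normal p K)) ?_)
    exact norm_inf_cent ((qt_mono _ zK).trans nL) (norm_of_cent ce)
  have n1 : qt Y K ⊓ 𝐂 (qt Y (Lk p K)) ⊴ qt Y K := normalIn_inf_cent nL
  have n2 : qt Y Z ⊴ qt Y K ⊓ 𝐂 (qt Y (Lk p K)) := ⟨le_inf (qt_mono _ zK) c1,
    (inf_le_inf_left _ (cent_anti (qt_mono _ h))).trans (fx K (NormalIn.refl K))⟩
  have n3 := n2.qp
  rw [qp_qt (zK.trans y.norm)] at n3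
  exact le_Yk (le_sup_right.trans ((le_F n3 nl).trans (F_le_F_of_normal (n1.qp_of_qt y)))) k'

theorem le_O_of_forall (hp : q.Prime) (h : Y ≤ L) (k : ∀ g ∈ L, PiGrp {q} (Y ⊔ cj g Y)) :
    Y ≤ 𝐎 {q} L := by
  have := Fact.mk hp
  rw [← map_pCore hp]
  exact CF.Loc.le_pCoreOf_of_forall_isPGroup h fun g hg => (k g hg).isPGroup

end CF.Fx3
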