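/-
A minimal counterexample to the characterisation of `F₂(G)`: the members do not lie in a proper
subgroup.
-/
import Cfsg.Agent.Fx3.D

set_option autoImplicit false
set_option linter.unusedSectionVars false

namespace CF.Fx3
open Subgroup Cfsg CF.BG CF.BG2
open scoped commutatorElement

variable {G : Type*} [Group G] [Finite G] {E H J K L M M' N P P' Q R X Y Z : Subgroup G} {p q : ℕ}
  {x g : G}

structure Pt (p : ℕ) (P : Subgroup G) : Prop where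
  pr : p.Prime
  card : ♯P = p
  F1 : ∀ N : Subgroup G, Nil N → N ≠ ⊥ → 𝐍 N ≠ ⊤
  gen : ∀ K, (∀ g, cj g P ≤ K) → K = ⊤
  f2 : ∀ K, K ≠ ⊤ → P ≤ K → P ≤ Lk p K
  two : ∀ y, P ⊔ zpowers y ≠ ⊤

structure Mq (p q : ℕ) (P Q : Subgroup G) : Prop where
  ne : q ≠ p
  pi : PiGrp {q} Q
  nm : P ≤ 𝐍 Q
  cm : ⁅Q, P⁆ = Q

theorem Mq.pi' (m : Mq p q P Q) : PiGrp {p}ᶜ Q := m.pi.of_single_ne m.ne

protected theorem Mq.cj (m : Mq p q P Q) (g : G) : Mq p q (cj g P) (cj g Q) :=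
  ⟨m.ne, m.pi.cj g, cj_norm_iff.2 m.nm, by rw [← cj_comm, m.cm]⟩

theorem Mq.cj_norm (m : Mq p q P Q) (hg : g ∈ 𝐍 P) : Mq p q P (cj g Q) :=
  cj_of_norm hg ▸ m.cj g

namespace Pt

theorem pi (h : Pt p P) : PiGrp {p} P := piGrp_of_card_prime h.pr h.card

theorem prime (h : Pt p P) : (♯P).Prime := h.card ▸ h.pr

theorem ne_bot (h : Pt p P) : P ≠ ⊥ := ne_bot_of_prime_card h.prime

theorem cyc (h : Pt p P) : Cyc P := cyc_of_prime h.prime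

theorem le_cent (h : Pt p P) : P ≤ 𝐂 P := h.cyc.abel

theorem cop (h : Pt p P) (k : PiGrp {p}ᶜ Q) : (♯P).Coprime (♯Q) := PiNat.coprime h.pi k

protected theorem cj (h : Pt p P) (g : G) : Pt p (cj g P) := by
  refine ⟨h.pr, by rw [card_cj, h.card], h.F1, fun K k => h.gen K fun a => ?_, fun K k l => ?_,
    fun y e => h.two (g⁻¹ * y * g⁻¹⁻¹) ?_⟩
  · have := k (a * g⁻¹)
    rwa [cj_cj, inv_mul_cancel_right] at this
  · have := (cj_mono g (h.f2 (cj g⁻¹ K) (by simpa using k) (cj_le_iff.1 l))).trans (cj_Lk_le _ _ _)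
    rwa [cj_cj_inv] at this
  · rw [← cj_zpowers, ← cj_eq_top (g := g), cj_sup, cj_cj_inv, e]

theorem two' (h : Pt p P) (h' : Pt p P') : P ⊔ P' ≠ ⊤ := by
  obtain ⟨y, rfl⟩ := h'.cyc.exists_gen
  exact h.two y

theorem normP (h : Pt p P) (k : PiGrp {q} Q) (q1 : Q ≠ ⊥) : 𝐍 Q ≠ ⊤ := h.F1 Q k.nil q1

theorem cent1 (h : Pt p P) (x1 : x ≠ 1) : 𝐂₁ x ≠ ⊤ :=
  proper_mono (h.F1 _ (abel_zpowers x).nil (ne_bot_of_mem (mem_zpowers x) x1))
    (by rw [← cent_zpowers]; exact cent_le_norm _)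

theorem comm_le (h : Pt p P) (k : K ≠ ⊤) (l : P ≤ K) (a : Q ≤ K) (b : PiGrp {p}ᶜ Q) (n : P ≤ 𝐍 Q) :
    ⁅Q, P⁆ ≤ Yk p K := comm_le_Yk (h.f2 K k l) a b n

theorem mq_le (h : Pt p P) (m : Mq p q P Q) (k : K ≠ ⊤) (l : P ≤ K) (a : Q ≤ K) : Q ≤ Yk p K :=
  m.cm ▸ h.comm_le k l a m.pi' m.nm

theorem mq_le_O (h : Pt p P) (m : Mq p q P Q) (k : K ≠ ⊤) (l : P ≤ K) (a : Q ≤ K) : Q ≤ 𝐎 {q} K :=
  le_O_of_le_Yk (h.mq_le m k l a) m.pi

theorem mq_comm (h : Pt p P) (ne : q ≠ p) (k : PiGrp {q} Q) (n : P ≤ 𝐍 Q) : Mq p q P ⁅Q, P⁆ :=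
  ⟨ne, k.le (comm_le_left n), norm_comm_right _ _,
    comm_comm_eq n (h.cop (k.of_single_ne ne)) (Or.inr k.sol)⟩

theorem dec (h : Pt p P) (k : PiGrp {p}ᶜ Q) (n : P ≤ 𝐍 Q) : ⁅Q, P⁆ ⊔ Q ⊓ 𝐂 P = Q :=
  comm_sup_inf_cent n (h.cop k) (Or.inl h.pi.sol)

theorem Yk_le (h : Pt p P) (l : P ≤ K) (c : 𝐂 P ≤ M)
    (a : ∀ q Q, Mq p q P Q → Q ≤ K → Q ≤ M) : Yk p K ≤ M := by
  refine Yk_nil.le_of_forall fun q hq d => ?_
  have ne : q ≠ p := Yk_pi q hq d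
  have n : P ≤ 𝐍 (𝐎 {q} (Yk p K)) := le_norm_O _ (l.trans (Yk_normal p K).norm)
  rw [← h.dec ((O_pi _ _).of_single_ne ne) n]
  exact sup_le (a q _ (h.mq_comm ne (O_pi _ _) n) ((comm_le_left n).trans ((O_le _ _).trans Fx3.Yk_le)))
    (inf_le_right.trans c)

theorem fb (h : Pt p P) (h' : Pt p P') (k : K ≠ ⊤) (l : P ≤ K) (l' : P' ≤ K) :
    ∃ t ∈ Yk p K, PiGrp {p} (P ⊔ cj t P') :=
  exists_cj_pi (h.f2 K k l) (h'.f2 K k l') h.pi h'.pi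

theorem baer (h : Pt p P) : ∃ q Q, Mq p q P Q ∧ Q ≠ ⊥ := by
  by_contra c
  have c' : ∀ q Q, Mq p q P Q → Q = ⊥ := fun q Q m => by
    by_contra e; exact c ⟨q, Q, m, e⟩
  have l := le_O_of_forall h.pr (le_top : P ≤ ⊤) fun g _ => by
    obtain ⟨t, ht, e⟩ := h.fb (h.cj g) (h.two' (h.cj g)) le_sup_left le_sup_right
    have := (h.cj g).Yk_le (K := P ⊔ cj g P) le_sup_right le_rfl (fun q Q m _ => by
      have := c' q _ (by simpa using m.cj g⁻¹)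
      rw [cj_eq_bot.1 this]; exact bot_le) ht
    rwa [cj_of_cent this] at e
  exact h.normP (O_pi _ _) (ne_bot_mono h.ne_bot l) (top_le_iff.1 (O_normal _ _).norm)

end Pt

structure Over (p : ℕ) (P M : Subgroup G) : Prop where
  pt : Pt p P
  mx : Mx M
  cen : 𝐂 P ≤ M
  mem : ∀ q Q, Mq p q P Q → Q ≤ M

protected theorem Over.cj (o : Over p P M) (g : G) : Over p (cj g P) (cj g M) :=
  ⟨o.pt.cj g, o.mx.cj g, by rw [← cj_cent]; exact cj_mono g o.cen,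
    fun q Q m => le_cj_iff.2 (o.mem q _ (by simpa using m.cj g⁻¹))⟩

theorem Over.le (o : Over p P M) : P ≤ M := o.pt.le_cent.trans o.cen

theorem Over.Yk_le (o : Over p P M) (l : P ≤ K) : Yk p K ≤ M :=
  o.pt.Yk_le l o.cen fun q Q m _ => o.mem q Q m

theorem Over.norm_Yk (o : Over p P M) : 𝐍 (Yk p M) = M := by
  obtain ⟨q, Q, m, q1⟩ := o.pt.baer
  exact o.mx.eq_of_le (o.pt.F1 _ Yk_nil (ne_bot_mono q1 (o.pt.mq_le m o.mx.ne_top o.le (o.mem q Q m))))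
    (Yk_normal p M).norm

theorem Over.mem_of_cj (o : Over p P M) (e : cj g M = M) : g ∈ M := by
  by_contra c
  have t : 𝐍 M = ⊤ := o.mx.eq_top (le_norm_self M) fun l => c (l (cj_eq_self.1 e))
  exact o.mx.ne_top (o.pt.gen M fun a => cj_le_of_norm (t ▸ mem_top a) o.le)

theorem Over.Yk_le_Yk (o : Over p P M) (o' : Over p P' M') (k : PiGrp {p} (P ⊔ P')) (a : P' ≤ M)
    (b : P ≤ M') : Yk p M' ≤ Yk p M := by
  have jL : P ⊔ P' ≤ Lk p M := sup_le (o.pt.f2 M o.mx.ne_top o.le) (o'.pt.f2 M o.mx.ne_top a)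
  have n : P ⊔ P' ≤ 𝐍 (Yk p M') := (sup_le b o'.le).trans (Yk_normal p M').norm
  have l := o.Yk_le b
  rw [← comm_sup_inf_cent n (PiNat.coprime k Yk_pi) (Or.inl k.sol)]
  refine sup_le (comm_le_Yk jL l Yk_pi n) (le_Yk_of_cent jL k ((cent_anti le_sup_left).trans o.cen)
    (normalIn_inf_right (((cent_anti le_sup_right).trans o'.cen).trans (Yk_normal p M').norm))
    Yk_pi.inf_left ((Yk_nil.sup Yk_nil ((o'.Yk_le a).trans (Yk_normal p M').norm)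
      (l.trans (Yk_normal p M).norm)).mono (sup_le_sup_left inf_le_left _)))

theorem exists_lt_sup_cj (k : PiGrp {p} J) (l : P < J) (hg : g ∈ J) : P ⊔ cj g P < J := by
  obtain ⟨N, a, ⟨b, c⟩, d⟩ := exists_maximal (P := fun N => N ≤ J ∧ N ≠ J) ⟨l.le, l.ne⟩
  have n : J ≤ 𝐍 N := by
    by_contra e
    have := k.nil.lt_inf_norm (lt_of_le_of_ne b c)
    exact this.ne (d _ ⟨inf_le_left, fun e' => e (e' ▸ inf_le_right)⟩ this.le).symm
  exact lt_of_le_of_lt (sup_le a (cj_le_of_norm (n hg) a)) (lt_of_le_of_ne b c)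

theorem Over.star (J : Subgroup G) : ∀ {P P' M M' : Subgroup G}, Over p P M → Over p P' M' →
    P ⊔ P' = J → PiGrp {p} J → M = M' := by
  induction J using card_induction with
  | h J ih =>
  have key : ∀ {P P' M M' : Subgroup G}, Over p P M → Over p P' M' → P ⊔ P' = J → PiGrp {p} J →
      P' ≤ M := fun {P P' M M'} o o' e k => by
    by_cases c : P = J
    · exact le_sup_right.trans (e.trans c.symm).le |>.trans o.le
    intro g hg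
    have l := exists_lt_sup_cj k (lt_of_le_of_ne (e ▸ le_sup_left) c) (e ▸ mem_sup_right hg)
    exact o.mem_of_cj (ih _ (card_lt l) o (o.cj g) rfl (k.le l.le)).symm
  intro P P' M M' o o' e k
  have a := key o o' e k
  have b := key o' o (sup_comm P P' ▸ e) k
  rw [← o.norm_Yk, ← o'.norm_Yk, le_antisymm (o.Yk_le_Yk o' (e ▸ k) a b)
    (o'.Yk_le_Yk o (sup_comm P P' ▸ e ▸ k) b a)]

theorem Pt.notN (h : Pt p P) (k : K ≠ ⊤) (l : P ≤ K) : ¬ ∀ q Q, Mq p q P Q → Q ≤ K := by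
  intro a
  set F := sSup {Q | ∃ q, Mq p q P Q}
  have f : ∀ {q Q}, Mq p q P Q → Q ≤ F := fun {q Q} m => le_sSup ⟨q, m⟩
  obtain ⟨q, Q, m, q1⟩ := h.baer
  obtain ⟨M, mx, lM⟩ := exists_mx (h.F1 F (Yk_nil.mono (sSup_le fun Q ⟨q, m⟩ =>
    h.mq_le m k l (a q Q m))) (ne_bot_mono q1 (f m)))
  have o : Over p P M := ⟨h, mx, le_trans (le_norm_of_cj_le fun c hc => cj_le_iff.2 (sSup_le
    fun Q hQ => hQ.elim fun q m => cj_le_iff.1 (f (m.cj_norm (cent_le_norm _ hc))))) lM,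
    fun q Q m => (f m).trans ((le_norm_self F).trans lM)⟩
  refine mx.ne_top (eq_top_iff.2 fun g _ => ?_)
  obtain ⟨t, ht, e⟩ := h.fb (h.cj g) (h.two' (h.cj g)) le_sup_left le_sup_right
  rw [cj_cj] at e
  have := o.mem_of_cj (Over.star _ o (o.cj (t * g)) rfl e).symm
  simpa using mul_mem (inv_mem (o.Yk_le le_sup_left ht)) this

theorem Pt.adj (h : Pt p P) (h' : Pt p P') (k : PiGrp {p} (P ⊔ P')) (ne : P ≠ P') :
    ∃ P'', Pt p P'' ∧ P ≠ P'' ∧ P'' ≤ 𝐂 P := by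
  have c : ∀ {X}, X ≤ P ⊔ P' → X ≤ 𝐍 P → X ≤ 𝐂 P := fun l n =>
    cent_symm ((k.le l).cent_of_prime h.pr h.card n)
  by_cases n : P' ≤ 𝐍 P
  · exact ⟨P', h', ne, c le_sup_right n⟩
  obtain ⟨g, hg, ng⟩ := SetLike.exists_of_lt (k.nil.lt_inf_norm (H := (P ⊔ P') ⊓ 𝐍 P)
    (lt_of_le_of_ne inf_le_left fun e => n (le_sup_right.trans (e.ge.trans inf_le_right))))
  have l : cj g P ≤ (P ⊔ P') ⊓ 𝐍 P := cj_le_of_norm hg.2 (le_inf le_sup_left (le_norm_self P))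
  exact ⟨_, h.cj g, fun e => ng ⟨hg.1, cj_eq_self.1 e.symm⟩,
    c (l.trans inf_le_left) (l.trans inf_le_right)⟩

/-- `E`-invariant `q`-subgroups whose fixed points lie in `O_q(C(E))`. -/
structure Xq (q : ℕ) (E X : Subgroup G) : Prop where
  pi : PiGrp {q} X
  nm : E ≤ 𝐍 X
  fx : X ⊓ 𝐂 E ≤ 𝐎 {q} (𝐂 E)

structure TI (p q : ℕ) (E : Subgroup G) : Prop where
  ne : q ≠ p
  pi : PiGrp {p} E
  F1 : ∀ N : Subgroup G, Nil N → N ≠ ⊥ → 𝐍 N ≠ ⊤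
  f2 : ∀ K, K ≠ ⊤ → E ≤ K → E ≤ Lk p K
  fx : ∀ K, K ≠ ⊤ → E ≤ K → ⁅𝐎 {q} K, E⁆ ⊓ 𝐂 E ≤ 𝐎 {q} (𝐂 E)

theorem Xq.sup (a : Xq q E X) (r : R ≤ 𝐎 {q} (𝐂 E)) (n : R ≤ 𝐍 X) : Xq q E (X ⊔ R) :=
  ⟨a.pi.sup ((O_pi _ _).le r) (Or.inr n), norm_sup a.nm (norm_of_cent' (r.trans (O_le _ _))), by
    rw [sup_inf_right (r.trans (O_le _ _)) (Or.inr n)]; exact sup_le a.fx r⟩

theorem TI.top (t : TI p q E) (k : K ≠ ⊤) (l : E ≤ K) :
    ∃ T, Xq q E T ∧ ∀ X, Xq q E X → X ≤ K → X ≤ T := by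
  have n : E ≤ 𝐍 (𝐎 {q} K) := l.trans (O_normal _ _).norm
  refine ⟨_, Xq.sup (R := 𝐎 {q} (𝐂 E) ⊓ K) ⟨(O_pi _ _).le (comm_le_left n), norm_comm_right _ _,
    t.fx K k l⟩ inf_le_left (norm_commutator (inf_le_right.trans (O_normal _ _).norm)
      (norm_of_cent (inf_le_left.trans (O_le _ _)))), fun X x a => ?_⟩
  have cop : (♯E).Coprime (♯X) := PiNat.coprime t.pi (x.pi.of_single_ne t.ne)
  rw [← comm_sup_inf_cent x.nm cop (Or.inr x.pi.sol), ← comm_comm_eq x.nm cop (Or.inr x.pi.sol)]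
  exact sup_le_sup (commutator_mono (le_O_of_le_Yk (comm_le_Yk (t.f2 K k l) a
    (x.pi.of_single_ne t.ne) x.nm) (x.pi.le (comm_le_left x.nm))) le_rfl)
    (le_inf x.fx (inf_le_left.trans a))

theorem TI.join (t : TI p q E) (a : Xq q E X) (b : Xq q E Y) (i : X ⊓ Y ≠ ⊥) :
    ∃ T, Xq q E T ∧ X ≤ T ∧ Y ≤ T := by
  have key : ∀ (n : ℕ) (X Y : Subgroup G), Nat.card G - ♯(X ⊓ Y) < n → Xq q E X → Xq q E Y →
      (∀ T, Xq q E T → X ≤ T → T = X) → (∀ T, Xq q E T → Y ≤ T → T = Y) → X ⊓ Y ≠ ⊥ → X = Y := by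
    intro n
    induction n with
    | zero => intro X Y h; omega
    | succ n ih =>
    intro X Y hn a b ma mb i
    by_contra ne
    obtain ⟨T, tt, top⟩ := t.top (t.F1 _ a.pi.inf_left.nil i) (norm_inf a.nm b.nm)
    obtain ⟨T', l, tt', mt⟩ := exists_maximal (P := Xq q E) tt
    have key : ∀ {W}, Xq q E W → (∀ T, Xq q E T → W ≤ T → T = W) → X ⊓ Y < W → W = T' :=
      fun {W} w mw lt => by
        have lt' := (w.pi.nil.lt_inf_norm lt).trans_le (le_inf inf_le_left ((top _ ⟨w.pi.inf_left,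
          norm_inf w.nm ((norm_inf a.nm b.nm).trans (norm_le_norm_norm _)),
          (inf_le_inf_right _ inf_le_left).trans w.fx⟩ inf_le_right).trans l))
        have c1 := card_lt lt'
        have c2 := card_le (le_top : W ⊓ T' ≤ ⊤)
        rw [card_top'] at c2
        exact ih W T' (by omega) w tt' mw mt (ne_bot_mono i lt'.le)
    exact ne ((key a ma (lt_of_le_of_ne inf_le_left fun e => ne (ma Y b (e ▸ inf_le_right)).symm)).trans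
      (key b mb (lt_of_le_of_ne inf_le_right fun e => ne (mb X a (e ▸ inf_le_left)))).symm)
  obtain ⟨X', l, a', ma⟩ := exists_maximal (P := Xq q E) a
  obtain ⟨Y', l', b', mb⟩ := exists_maximal (P := Xq q E) b
  obtain rfl := key _ X' Y' (Nat.lt_succ_self _) a' b' ma mb (ne_bot_mono i (inf_le_inf l l'))
  exact ⟨_, a', l, l'⟩

end CF.Fx3
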