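/-
The characterisation of `F₂(G)`: the case `p = 2`.
-/
import Cfsg.Agent.Fx3.E
import Cfsg.Agent.Char.ZStarCor
import Cfsg.Agent.Hyp.FTProof

set_option autoImplicit false
set_option linter.unusedSectionVars false

namespace CF.Fx3
open Subgroup Cfsg CF.BG CF.BG2
open scoped commutatorElement

universe u

theorem four (m : ℕ) : ∀ {Ω : Type u} [Group Ω] [Finite Ω] {E Y D : Subgroup Ω}, ♯Y < m →
    Abelem 2 E → ♯E = 4 → Nil Y → PiGrp {2}ᶜ Y → E ≤ 𝐍 Y →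
    (∀ e ∈ E, e ≠ 1 → ⁅Y ⊓ 𝐂₁ e, E⁆ ⊓ 𝐂 E ≤ D) → ⁅Y, E⁆ ⊓ 𝐂 E ≤ D := by
  induction m with
  | zero => intro _ _ _ _ _ _ h; omega
  | succ m ih =>
  intro Ω _ _ E Y D hm a c4 nl pi n hD
  have cop : ∀ {X A}, X ≤ Y → A ≤ E → (♯A).Coprime (♯X) := fun l k => PiNat.coprime (a.pi.le k) (pi.le l)
  by_cases per : ⁅Y, E⁆ = Y
  swap
  · have l := comm_le_left n
    rw [← comm_comm_eq n (cop le_rfl le_rfl) (Or.inr nl.sol)]
    exact ih (by have := card_lt (lt_of_le_of_ne l per); omega) a c4 (nl.mono l) (pi.le l)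
      (norm_comm_right _ _) fun e he e1 => (inf_le_inf_right _ (commutator_mono
        (inf_le_inf_right _ l) le_rfl)).trans (hD e he e1)
  rw [per]
  by_contra nle
  have el : Elem 2 2 E E := elem_of_card Nat.prime_two le_rfl a c4
  have ne : ∀ e ∈ E, ∀ {X}, E ≤ 𝐍 X → E ≤ 𝐍 (X ⊓ 𝐂₁ e) := fun e he X k => by
    rw [← cent_zpowers]; exact norm_inf_cent k (a.abel.le_norm (zpowers_le.2 he))
  have star : ∀ N, N ⊴ Y → E ≤ 𝐍 N → N ⊓ 𝐂 E ≤ D → N = ⊥ := fun N hN nN l => by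
    by_contra N1
    have i : N ⊓ E = ⊥ := by rw [inf_comm]; exact BG.inf_eq_bot_of_coprime (cop hN.le le_rfl)
    have so : Sol N := nl.sol.mono hN.le
    have := ih (E := qt N E) (Y := qt N Y) (D := qt N (D ⊓ (Y ⊓ 𝐂 E)))
      (by have := card_qt_lt hN N1; omega) (a.qt N) (by rw [card_qt_of_inf_bot nN i, c4]) (nl.qt N)
      (pi.qt N) (qt_norm N n) fun e' he' e1 => by
        obtain ⟨e, he, en, rfl⟩ := mem_qt.1 he'
        have z : zpowers e ≤ E := zpowers_le.2 he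
        have l := comm_le_left (ne e he n)
        rw [← cent_zpowers, ← qt_zpowers en, ← qt_inf_cent' (z.trans nN) (z.trans n) (cop hN.le z)
          (Or.inr so), cent_zpowers, ← qt_comm (inf_le_left.trans hN.norm) nN,
          ← qt_inf_cent' nN (norm_comm_right _ _) (cop hN.le le_rfl) (Or.inr so)]
        exact qt_mono N (le_inf (hD e he fun e' => e1 (by rw [e', qe_one]))
          (inf_le_inf_right _ (l.trans inf_le_left)))
    rw [← qt_comm hN.norm nN, per, ← qt_inf_cent' nN n (cop hN.le le_rfl) (Or.inr so),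
      qt_le_qt_iff (inf_le_left.trans hN.norm) ((inf_le_right.trans inf_le_left).trans hN.norm)] at this
    refine nle ((le_inf this inf_le_right).trans ?_)
    rw [sup_inf_right (inf_le_right.trans inf_le_right)
      (Or.inr ((inf_le_right.trans inf_le_left).trans hN.norm))]
    exact sup_le l inf_le_left
  have nZ : E ≤ 𝐍 (𝐙 Y) := n.trans (norm_center Y)
  have zc : 𝐙 Y ≤ 𝐂 E := comm_eq_bot.1 (star _ (normalIn_of_le_center (comm_le_left nZ))
    (norm_comm_right _ _) (by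
      rw [(center_abel Y).comm_inf_cent nZ (cop inf_le_left le_rfl)]; exact bot_le))
  have dz : D ⊓ 𝐙 Y = ⊥ := star _ (normalIn_of_le_center inf_le_right)
    (norm_of_cent' (inf_le_right.trans zc)) (inf_le_left.trans inf_le_left)
  set W := Y ⊓ centMod Y (𝐙 Y)
  have nW : E ≤ 𝐍 W := norm_inf n (norm_centMod n nZ)
  have wz : ∀ {X A}, X ≤ W → A ≤ Y → ⁅X, A⁆ ≤ 𝐙 Y := fun l k =>
    (commutator_mono (l.trans inf_le_right) k).trans (comm_centMod_le _ _)
  have bot : ∀ {A B : Subgroup Ω}, A ≤ 𝐂 B → ⁅A, B⁆ ≤ ⊥ := fun h => (comm_eq_bot.2 h).le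
  have w : W ≤ 𝐂 Y := by
    refine a.abel.le_of_cent1 el.not_cyc nW (cop inf_le_left le_rfl) fun e he e1 => ?_
    rw [← comm_sup_inf_cent (ne e he nW) (cop (inf_le_left.trans inf_le_left) le_rfl) (Or.inl a.abel.sol)]
    refine sup_le ?_ (cent_symm ?_)
    · have key : ∀ f ∈ E, f ≠ 1 → f ≠ e → ⁅W ⊓ 𝐂₁ e, E⁆ ≤ 𝐂 (Y ⊓ 𝐂₁ f) := fun f hf f1 fe => by
        have ef : zpowers e ⊔ zpowers f = E := (el.dprod_two (a.elem_zpowers he e1) (a.elem_zpowers hf f1)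
          fun h => fe (CF.Invol.eq_of_zpowers_eq_invol (a.orderOf he e1) (a.orderOf hf f1) h).symm).sup
        have c : zpowers e ≤ 𝐂 (W ⊓ 𝐂₁ e) := zpowers_le.2 (le_cent1_iff.1 inf_le_right)
        rw [commutator_comm, ← ef, comm_sup_cent c (norm_of_cent (a.abel.cent (zpowers_le.2 he)
          (zpowers_le.2 hf)))]
        refine comm_eq_bot.1 (le_bot_iff.1 (three_subgroup (by simp) (by simp) (by simp)
          (bot ((wz inf_le_left inf_le_left).trans (zc.trans (cent_anti (zpowers_le.2 hf))))) ?_))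
        rw [comm_eq_bot.2 (show Y ⊓ 𝐂₁ f ≤ 𝐂 (zpowers f) by rw [cent_zpowers]; exact inf_le_right),
          commutator_bot_left]
      refine cent_symm (a.abel.le_of_cent1 el.not_cyc n (cop le_rfl le_rfl) fun f hf f1 => ?_)
      by_cases fe : f = e
      swap
      · exact cent_symm (key f hf f1 fe)
      subst fe
      obtain ⟨g, hg, g1, gf⟩ := CF.Invol.klein_exists_ne (CF.Invol.isKleinFour_iff.2
        ⟨c4, fun x hx => by rw [← pow_two]; exact a.pow x hx⟩) f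
      rw [← comm_sup_inf_cent (ne f hf n) (cop inf_le_left le_rfl) (Or.inl a.abel.sol)]
      refine sup_le (comm_eq_bot'.1 (eq_bot_mono dz ?_)) (cent_symm ((key g hg g1 gf).trans (cent_anti
        (le_inf (inf_le_left.trans inf_le_left) (inf_le_right.trans (cent_le_cent1 hg))))))
      have z := wz ((comm_le_left (ne f hf nW)).trans inf_le_left)
        ((comm_le_left (ne f hf n)).trans inf_le_left)
      exact le_inf ((le_inf ((commutator_mono (commutator_mono (inf_le_inf_right _ inf_le_left) le_rfl)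
        le_rfl).trans (der_le _)) (z.trans zc)).trans (hD f hf f1)) z
    · rw [← per, commutator_comm]
      refine comm_eq_bot.1 (le_bot_iff.1 (three_subgroup (by simp) (by simp) (by simp) (bot ?_) ?_))
      · rw [commutator_comm]; exact (wz (inf_le_left.trans inf_le_left) le_rfl).trans zc
      · rw [comm_eq_bot.2 inf_le_right, commutator_bot_left]
  have nz := (center_normal Y).norm
  have ab : Abel Y := by
    by_contra na
    obtain ⟨y, hy, y1⟩ := exists_mem_ne_one ((nl.qt (𝐙 Y)).center_ne_bot fun e =>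
      na (((qt_eq_bot nz).1 e).trans inf_le_right))
    obtain ⟨x, hx, xn, rfl⟩ := mem_qt.1 hy.1
    refine y1 ((qe_eq_one xn).2 ⟨hx, w ⟨hx, ?_⟩⟩)
    rw [← qp_cent_eq nz]
    exact mem_qp.2 ⟨xn, hy.2⟩
  have := ab.comm_inf_cent n (cop le_rfl le_rfl)
  rw [per] at this
  exact nle (this.le.trans bot_le)

variable {G : Type*} [Group G] [Finite G] {A E H J K L M M' N P P' Q R X Y Z : Subgroup G} {p q r : ℕ}
  {x y g k a b e : G}

theorem mem_of_sq (o : PiElt {2}ᶜ k) (h : k * k ∈ H) : k ∈ H := by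
  obtain ⟨m, e⟩ := Nat.odd_iff.2 (Nat.two_dvd_ne_zero.1 ((piNat_compl_single Nat.prime_two).1 o))
  have : (k * k) ^ (m + 1) = k := by
    rw [← pow_two, ← pow_mul, show 2 * (m + 1) = orderOf k + 1 by omega, pow_succ, pow_orderOf_eq_one,
      one_mul]
  exact this ▸ pow_mem h _

theorem mq_inv (ne : q ≠ 2) (o : PiElt {q} k) (h : x * k * x⁻¹ = k⁻¹) :
    Mq 2 q (zpowers x) (zpowers k) := by
  have n : zpowers x ≤ 𝐍 (zpowers k) := zpowers_le.2 (cj_eq_self.1 (by rw [cj_zpowers, h, zpowers_inv]))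
  refine ⟨ne, o.zpowers, n, le_antisymm (comm_le_left n) (zpowers_le.2 (mem_of_sq
    (o.of_single' (by simpa using ne)) ?_))⟩
  convert commutator_mem_commutator (mem_zpowers k) (mem_zpowers x) using 1
  calc k * k = k * (x * k * x⁻¹)⁻¹ := by rw [h, inv_inv]
    _ = _ := by rw [commutatorElement_def]; group

theorem Mq.le_of_inv (m : Mq 2 q (zpowers x) A) (o : orderOf x = 2)
    (h : ∀ a ∈ A, x * a * x⁻¹ = a⁻¹ → a ∈ X) : A ≤ X := by
  rw [← m.cm]
  refine commutator_le.2 fun a ha y hy => ?_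
  have x2 : x * x = 1 := by rw [← pow_two, ← o, pow_orderOf_eq_one]
  obtain ⟨i, rfl⟩ := mem_zpowers_iff.1 hy
  rcases Int.even_or_odd' i with ⟨j, rfl | rfl⟩
  · rw [zpow_mul, zpow_two, x2, one_zpow, commutatorElement_one_right]; exact one_mem _
  rw [zpow_add_one, zpow_mul, zpow_two, x2, one_zpow, one_mul]
  refine h _ (m.cm ▸ commutator_mem_commutator ha (mem_zpowers x)) ?_
  calc _ = x * a * x * a⁻¹ * (x * x)⁻¹ := by rw [commutatorElement_def]; group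
    _ = x * a * (x * x) * x⁻¹ * a⁻¹ * (x * x)⁻¹ := by group
    _ = _ := by rw [x2, commutatorElement_def]; group

structure Ad (x y : G) : Prop where
  px : Pt 2 (zpowers x)
  py : Pt 2 (zpowers y)
  ne : zpowers x ≠ zpowers y
  cm : x * y = y * x

namespace Ad

theorem ox (h : Ad x y) : orderOf x = 2 := by rw [← Nat.card_zpowers, h.px.card]

theorem oy (h : Ad x y) : orderOf y = 2 := by rw [← Nat.card_zpowers, h.py.card]

theorem xx (h : Ad x y) : x * x = 1 := by rw [← pow_two, ← h.ox, pow_orderOf_eq_one]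

theorem el (h : Ad x y) : Elem 2 2 (zpowers x ⊔ zpowers y) ⊤ :=
  (elem_zpowers Nat.prime_two (mem_top x) h.ox).sup (elem_zpowers Nat.prime_two (mem_top y) h.oy)
    (zpowers_le.2 (by rw [cent_zpowers]; exact mem_cent1.2 h.cm))
    ((elem_zpowers Nat.prime_two (mem_top x) h.ox).inf_eq_bot
      (elem_zpowers Nat.prime_two (mem_top y) h.oy) h.ne)

theorem mx (x y : G) : x ∈ zpowers x ⊔ zpowers y := mem_sup_left (mem_zpowers x)

theorem my (x y : G) : y ∈ zpowers x ⊔ zpowers y := mem_sup_right (mem_zpowers y)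

theorem y1 (h : Ad x y) : y ≠ 1 := fun e => h.py.ne_bot (by rw [e, zpowers_one_eq_bot])

theorem xy1 (h : Ad x y) : x * y ≠ 1 := fun e => h.ne (by
  rw [eq_inv_of_mul_eq_one_left e, zpowers_inv])

theorem f2 (h : Ad x y) (k : K ≠ ⊤) (l : zpowers x ⊔ zpowers y ≤ K) : zpowers x ⊔ zpowers y ≤ Lk 2 K :=
  sup_le (h.px.f2 K k (le_sup_left.trans l)) (h.py.f2 K k (le_sup_right.trans l))

theorem le1 (h : Ad x y) (he : e ∈ zpowers x ⊔ zpowers y) : zpowers x ⊔ zpowers y ≤ 𝐂₁ e :=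
  h.el.abel.trans (cent_le_cent1 he)

theorem ti (h : Ad x y) (ne : q ≠ 2) : TI 2 q (zpowers x ⊔ zpowers y) := by
  refine ⟨ne, h.el.pi, h.px.F1, fun K => h.f2, fun K k l => four _ (Nat.lt_succ_self _) h.el.ab
    h.el.card (O_pi _ _).nil ((O_pi _ _).of_single_ne ne) (l.trans (O_normal _ _).norm)
    fun e he e1 => ?_⟩
  have n : zpowers x ⊔ zpowers y ≤ 𝐍 (𝐎 {q} K ⊓ 𝐂₁ e) :=
    norm_inf (l.trans (O_normal _ _).norm) (norm_of_le (h.le1 he))
  exact (inf_le_inf_right _ (le_O_of_le_Yk (comm_le_Yk (h.f2 (h.px.cent1 e1) (h.le1 he)) inf_le_right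
    ((O_pi _ _).inf_left.of_single_ne ne) n) ((O_pi _ _).inf_left.le (comm_le_left n)))).trans
    (O_inf_le (cent_le_cent1 he) _)

theorem mq (h : Ad x y) (ne : q ≠ 2) (he : e ∈ zpowers x ⊔ zpowers y) :
    Mq 2 q (zpowers x) ⁅𝐎 {q} (𝐂₁ e), zpowers x⁆ :=
  h.px.mq_comm ne (O_pi _ _) ((le_sup_left.trans (h.le1 he)).trans (O_normal _ _).norm)

theorem le_O (h : Ad x y) (he : e ∈ zpowers x ⊔ zpowers y) :
    ⁅𝐎 {q} (𝐂₁ e), zpowers x⁆ ≤ 𝐎 {q} (𝐂₁ e) :=
  comm_le_left ((le_sup_left.trans (h.le1 he)).trans (O_normal _ _).norm)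

theorem xq (h : Ad x y) (he : e ∈ zpowers x ⊔ zpowers y) :
    Xq q (zpowers x ⊔ zpowers y) ⁅𝐎 {q} (𝐂₁ e), zpowers x⁆ :=
  ⟨(O_pi _ _).le (h.le_O he), norm_commutator ((h.le1 he).trans (O_normal _ _).norm)
    (h.el.abel.le_norm le_sup_left),
    (inf_le_inf_right _ (h.le_O he)).trans (O_inf_le (cent_le_cent1 he) _)⟩

theorem mem_le (h : Ad x y) (m : Mq 2 q (zpowers x) Q) :
    Q ≤ ⁅𝐎 {q} (𝐂₁ y), zpowers x⁆ ⊔ ⁅𝐎 {q} (𝐂₁ (x * y)), zpowers x⁆ := by
  refine m.le_of_inv h.ox fun k hk e => ?_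
  set K := zpowers x ⊔ zpowers (y * k)
  have k1 : y * k ∈ K := my _ _
  have kK : k ∈ K := mem_of_sq (m.pi'.elt hk) (by
    convert mul_mem (inv_mem (mul_mem (mul_mem (mx x _) k1) (inv_mem (mx x _)))) k1 using 1
    calc k * k = (y * (x * k * x⁻¹))⁻¹ * (y * k) := by rw [e]; group
      _ = (y * x * k * x⁻¹)⁻¹ * (y * k) := by group
      _ = _ := by rw [← h.cm]; group)
  have eK : zpowers x ⊔ zpowers y ≤ K :=
    sup_le le_sup_left (zpowers_le.2 (by simpa using mul_mem k1 (inv_mem kK)))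
  have mk := mq_inv m.ne (m.pi.elt hk) e
  have n : zpowers x ⊔ zpowers y ≤ 𝐍 (𝐎 {q} K) := eK.trans (O_normal _ _).norm
  have mW := h.px.mq_comm m.ne (O_pi {q} K) (le_sup_left.trans n)
  set W := ⁅𝐎 {q} K, zpowers x⁆
  have kW : k ∈ W := commutator_mono (h.px.mq_le_O mk (h.px.two _) le_sup_left (zpowers_le.2 kK)) le_rfl
    (mk.cm.ge (mem_zpowers k))
  have nW : zpowers x ⊔ zpowers y ≤ 𝐍 W := norm_commutator n (h.el.abel.le_norm le_sup_left)
  have fx : W ⊓ 𝐂 (zpowers x) ≤ 𝚽 W := (CF.Coprime.inf_centralizer_le_commutator _ _ mW.nm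
    (h.px.cop mW.pi') mW.cm).trans mW.pi.der_le_Phi
  have key : ∀ {e}, e ∈ zpowers x ⊔ zpowers y → e ≠ 1 →
      W ⊓ 𝐂₁ e ≤ (W ⊓ ⁅𝐎 {q} (𝐂₁ e), zpowers x⁆) ⊔ 𝚽 W := fun {e} he e1 => by
    have n' : zpowers x ≤ 𝐍 (W ⊓ 𝐂₁ e) := norm_inf mW.nm (norm_of_le (le_sup_left.trans (h.le1 he)))
    have m' := h.px.mq_comm m.ne mW.pi.inf_left n'
    rw [← h.px.dec mW.pi'.inf_left n']
    refine sup_le_sup (le_inf ((comm_le_left n').trans inf_le_left) (m'.cm.ge.trans (commutator_mono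
      (h.px.mq_le_O m' (h.px.cent1 e1) (le_sup_left.trans (h.le1 he))
        ((comm_le_left n').trans inf_le_right)) le_rfl))) ((inf_le_inf_right _ inf_le_left).trans fx)
  have := eq_of_le_sup_Phi (H := W) (K := W ⊓ (⁅𝐎 {q} (𝐂₁ y), zpowers x⁆ ⊔
      ⁅𝐎 {q} (𝐂₁ (x * y)), zpowers x⁆)) inf_le_left (h.el.abel.le_of_cent1 h.el.self.not_cyc nW
    (PiNat.coprime h.el.pi mW.pi') fun e he e1 => by
      rcases (CF.Invol.klein_mem_iff (CF.Invol.isKleinFour_iff.2 ⟨h.el.card, fun x hx => by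
        rw [← pow_two]; exact h.el.ab.pow x hx⟩) (mx x y) (my x y) (fun e => h.px.ne_bot
          (by rw [e, zpowers_one_eq_bot])) h.y1 (fun e => h.ne (by rw [e]))).1 he with
        rfl | rfl | rfl | rfl
      · exact absurd rfl e1
      · rw [← cent_zpowers]; exact fx.trans le_sup_right
      · exact (key he e1).trans (sup_le_sup_right (inf_le_inf_left _ le_sup_left) _)
      · exact (key he e1).trans (sup_le_sup_right (inf_le_inf_left _ le_sup_right) _))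
  exact (mem_inf.1 (this.ge kW)).2

theorem pair (h : Ad x y) (q2 : q ≠ 2) (r2 : r ≠ 2) (oa : PiElt {q} a) (ob : PiElt {r} b)
    (ca : a ∈ 𝐂₁ y) (cb : b ∈ 𝐂₁ (x * y)) (ia : x * a * x⁻¹ = a⁻¹) (ib : x * b * x⁻¹ = b⁻¹) :
    zpowers a ⊔ zpowers b ⊔ (zpowers x ⊔ zpowers y) ≠ ⊤ := by
  intro t
  have ya : y * a * y⁻¹ = a := by rw [← mem_cent1.1 ca]; group
  have yb : y * b * y⁻¹ = b⁻¹ := by
    calc _ = (x * x) * y * b * y⁻¹ * (x * x)⁻¹ := by rw [h.xx]; group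
      _ = x * ((x * y) * b * (x * y)⁻¹) * x⁻¹ := by group
      _ = _ := by rw [← mem_cent1.1 cb, mul_inv_cancel_right, ib]
  set K := zpowers y ⊔ zpowers (a * b)
  have k1 : a * b ∈ K := my _ _
  have bK : b ∈ K := mem_of_sq (ob.of_single' (by simpa using r2)) (by
    convert mul_mem (inv_mem (mul_mem (mul_mem (mx y _) k1) (inv_mem (mx y _)))) k1 using 1
    calc b * b = ((y * a * y⁻¹) * (y * b * y⁻¹))⁻¹ * (a * b) := by rw [ya, yb]; group
      _ = _ := by group)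
  have dK : zpowers a ⊔ zpowers b ≤ K :=
    sup_le (zpowers_le.2 (by simpa using mul_mem k1 (inv_mem bK))) (zpowers_le.2 bK)
  have n : 𝐍 (zpowers a ⊔ zpowers b) = ⊤ := top_le_iff.1 (t.ge.trans (sup_le (le_norm_self _) (sup_le
    (norm_sup (mq_inv q2 oa ia).nm (mq_inv r2 ob ib).nm) (norm_sup (zpowers_le.2 (cj_eq_self.1
      (by rw [cj_zpowers, ya]))) (mq_inv r2 ob yb).nm))))
  have bF : zpowers b ≤ 𝐅 (zpowers a ⊔ zpowers b) := (le_inf le_sup_right ((h.py.mq_le (mq_inv r2 ob yb)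
    (h.py.two _) le_sup_left (zpowers_le.2 bK)).trans (O_le _ _))).trans (inf_F_le dK)
  have b1 : zpowers b = ⊥ := by
    by_contra c
    exact h.px.F1 _ (F_nil _) (ne_bot_mono c bF) (top_le_iff.1 (n.ge.trans (norm_F _)))
  rw [b1, sup_bot_eq] at n t
  have a1 : zpowers a = ⊥ := by
    by_contra c
    exact h.px.F1 _ (abel_zpowers a).nil c n
  rw [a1, bot_sup_eq] at t
  exact h.px.F1 _ h.el.pi.nil h.el.ne_bot (by rw [t, norm_top])

theorem false (h : Ad x y) : False := by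
  have my' := my x y
  have mxy := mul_mem (mx x y) my'
  set A := fun q : ℕ => ⁅𝐎 {q} (𝐂₁ y), zpowers x⁆
  set B := fun q : ℕ => ⁅𝐎 {q} (𝐂₁ (x * y)), zpowers x⁆
  have pr : ∀ {q r a b}, q ≠ 2 → r ≠ 2 → a ∈ A q → b ∈ B r → x * a * x⁻¹ = a⁻¹ → x * b * x⁻¹ = b⁻¹ →
      zpowers a ⊔ zpowers b ⊔ (zpowers x ⊔ zpowers y) ≠ ⊤ := fun q2 r2 ha hb =>
    h.pair q2 r2 ((O_pi _ _).elt (h.le_O my' ha)) ((O_pi _ _).elt (h.le_O mxy hb))
      (O_le _ _ (h.le_O my' ha)) (O_le _ _ (h.le_O mxy hb))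
  have xi : ∀ {q k X}, Xq q (zpowers x ⊔ zpowers y) X → k ∈ X → q ≠ 2 → x * k * x⁻¹ = k⁻¹ →
      zpowers y ≤ 𝐍 (zpowers k) → Xq q (zpowers x ⊔ zpowers y) (zpowers k) := fun t hk q2 i n =>
    ⟨t.pi.le (zpowers_le.2 hk), sup_le (mq_inv q2 (t.pi.elt hk) i).nm n,
      (inf_le_inf_right _ (zpowers_le.2 hk)).trans t.fx⟩
  have pi : ∀ q, q ≠ 2 → PiGrp {q} (A q ⊔ B q) := fun q q2 => by
    by_cases a1 : A q = ⊥
    · rw [a1, bot_sup_eq]; exact (h.xq mxy).pi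
    by_cases b1 : B q = ⊥
    · rw [b1, sup_bot_eq]; exact (h.xq my').pi
    obtain ⟨a, ha, ia, a1⟩ : ∃ a ∈ A q, x * a * x⁻¹ = a⁻¹ ∧ a ≠ 1 := by
      by_contra c
      exact a1 (le_bot_iff.1 ((h.mq q2 my').le_of_inv h.ox fun a ha i => by
        by_contra e; exact c ⟨a, ha, i, e⟩))
    obtain ⟨b, hb, ib, b1⟩ : ∃ a ∈ B q, x * a * x⁻¹ = a⁻¹ ∧ a ≠ 1 := by
      by_contra c
      exact b1 (le_bot_iff.1 ((h.mq q2 mxy).le_of_inv h.ox fun a ha i => by
        by_contra e; exact c ⟨a, ha, i, e⟩))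
    obtain ⟨T, t, top⟩ := (h.ti q2).top (pr q2 q2 ha hb ia ib) le_sup_right
    have aT := top _ (xi (h.xq my') ha q2 ia (norm_of_cent' (zpowers_le.2 (by
      rw [cent_zpowers]; exact O_le _ _ (h.le_O my' ha))))) (le_sup_left.trans le_sup_left) (mem_zpowers a)
    have bT := top _ (xi (h.xq mxy) hb q2 ib (zpowers_le.2 (by
      have h1 := norm_of_cent' (zpowers_le.2 (by
        rw [cent_zpowers]; exact O_le _ _ (h.le_O mxy hb)) : zpowers b ≤ 𝐂 (zpowers (x * y)))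
        (mem_zpowers _)
      simpa using mul_mem (inv_mem ((mq_inv q2 ((h.xq mxy).pi.elt hb) ib).nm (mem_zpowers x))) h1)))
      (le_sup_right.trans le_sup_left) (mem_zpowers b)
    obtain ⟨T₁, t₁, l₁, l₁'⟩ := (h.ti q2).join (h.xq my') t (ne_bot_of_mem (mem_inf.2 ⟨ha, aT⟩) a1)
    obtain ⟨T₂, t₂, l₂, l₂'⟩ := (h.ti q2).join (h.xq mxy) t₁ (ne_bot_of_mem (mem_inf.2 ⟨hb, l₁' bT⟩) b1)
    exact t₂.pi.le (sup_le (l₁.trans l₂') l₂)
  have ab : ∀ q r, q ≠ 2 → r ≠ 2 → q ≠ r → A q ≤ 𝐂 (B r) := fun q r q2 r2 qr =>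
    (h.mq q2 my').le_of_inv h.ox fun a ha ia => le_cent1_iff.1 ((h.mq r2 mxy).le_of_inv h.ox
      fun b hb ib => by
      have k := pr q2 r2 ha hb ia ib
      have ma := mq_inv q2 ((h.xq my').pi.elt ha) ia
      have mb := mq_inv r2 ((h.xq mxy).pi.elt hb) ib
      have l : zpowers x ≤ zpowers a ⊔ zpowers b ⊔ (zpowers x ⊔ zpowers y) :=
        le_sup_left.trans le_sup_right
      exact cent_le_cent1 (mem_zpowers a) (Yk_nil.cent_of_pi (h.px.mq_le mb k l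
        (le_sup_right.trans le_sup_left)) (h.px.mq_le ma k l (le_sup_left.trans le_sup_left))
        mb.pi (ma.pi.of_single_ne qr) (mem_zpowers b)))
  have oo : ∀ {q r e}, e ∈ zpowers x ⊔ zpowers y → q ≠ r →
      ⁅𝐎 {q} (𝐂₁ e), zpowers x⁆ ≤ 𝐂 ⁅𝐎 {r} (𝐂₁ e), zpowers x⁆ := fun he qr =>
    cent_mono (O_cent_normal (O_normal _ _) ((O_pi _ _).of_single_ne qr.symm)) (h.le_O he) (h.le_O he)
  obtain ⟨r, Q, m, q1⟩ := h.px.baer
  refine h.px.notN (h.px.normP (pi r m.ne) (ne_bot_mono q1 (h.mem_le m)))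
    (norm_sup (h.mq m.ne my').nm (h.mq m.ne mxy).nm) fun q Q' m' => (h.mem_le m').trans ?_
  by_cases e : q = r
  · subst e; exact le_norm_self _
  exact norm_of_cent (sup_le (le_cent_sup (oo my' e) (ab q r m'.ne m.ne e))
    (le_cent_sup (cent_symm (ab r q m.ne m'.ne (Ne.symm e))) (oo mxy e)))

end Ad

theorem Pt.false_two (h : Pt 2 P) : False := by
  obtain ⟨x, rfl⟩ := h.cyc.exists_gen
  have ox : orderOf x = 2 := by rw [← Nat.card_zpowers, h.card]
  obtain ⟨N, nN, o, c⟩ := CF.Char.inZStar_of_isolated (u := x) ⟨ox, fun g c => by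
    by_contra ne
    exact Ad.false ⟨h, cj_zpowers g x ▸ h.cj g, fun e => ne (CF.Invol.eq_of_zpowers_eq_invol ox
      (by rw [orderOf_conj', ox]) e).symm, c⟩⟩
  have n : 𝐍 N = ⊤ := top_le_iff.1 (normalIn_top.2 nN).norm
  have N1 : N = ⊥ := by
    by_contra N1
    exact h.F1 _ (F_nil N) (Sol.F_ne_bot (CF.Hyp.isSolvable_of_odd o) N1)
      (top_le_iff.1 (n.ge.trans (norm_F N)))
  refine h.cent1 (x := x) (fun e => h.ne_bot (by rw [e, zpowers_one_eq_bot])) (eq_top_iff.2 fun g _ => ?_)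
  have := eq_one_of_mem_bot N1 (c g)
  exact mem_cent1.2 (by rw [mul_inv_eq_one, mul_inv_eq_iff_eq_mul] at this; exact this.symm)

end CF.Fx3
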