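/-
The characterisation of `F₂(G)` for odd `p`: maximal members.
-/
import Cfsg.Agent.Fx3.E

set_option autoImplicit false
set_option linter.unusedSectionVars false

namespace CF.Fx3
open Subgroup Cfsg CF.BG CF.BG2
open scoped commutatorElement

variable {G : Type*} [Group G] [Finite G] {A B A₀ B₀ E H J K L M N P P' Q R W X Y Z : Subgroup G}
  {p q r : ℕ} {x g z : G}

theorem Tg_le_of (a : P ≤ K) (b : cj g⁻¹ P ≤ K) : Tg P g ≤ K := Tg_le fun y hy => by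
  have := mul_mem (b (conj_mem_cj.2 hy)) (inv_mem (a hy))
  convert this using 1; group

theorem Tg_le_sup : Tg P g ≤ P ⊔ zpowers g :=
  Tg_le_of le_sup_left (cj_le_of_mem (inv_mem (mem_sup_right (mem_zpowers g))) le_sup_left)

theorem Pt.tg (h : Pt p P) (m : Mq p q P Q) (hg : g ∈ Q) : Mq p q P (Tg P g) :=
  ⟨m.ne, m.pi.le (Tg_le_self m.nm hg), norm_Tg, comm_Tg m.nm (h.cop m.pi') m.pi.sol hg⟩

theorem Pt.fac (h : Pt p P) (m : Mq p q P Q) (hg : g ∈ Q) :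
    ∃ c ∈ 𝐂 P, ∃ k ∈ Tg P g, g = c * k ∧ Tg P k = Tg P g := by
  obtain ⟨c, hc, k, hk, e⟩ := exists_fac m.nm (h.cop m.pi') m.pi.sol hg
  exact ⟨c, hc.2, k, hk, e, by rw [e, Tg_mul hc.2]⟩

theorem Pt.mq_le_top (h : Pt p P) (m : Mq p q P Q) (k : K ≠ ⊤) (l : P ≤ K) (a : Q ≤ K) :
    Q ≤ ⁅𝐎 {q} K, P⁆ := m.cm.ge.trans (commutator_mono (h.mq_le_O m k l a) le_rfl)

theorem Pt.mq_top (h : Pt p P) (ne : q ≠ p) (l : P ≤ K) : Mq p q P ⁅𝐎 {q} K, P⁆ :=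
  h.mq_comm ne (O_pi _ _) (l.trans (O_normal _ _).norm)

theorem Pt.mq_cent (h : Pt p P) (a : Mq p q P X) (b : Mq p r P Y) (ne : q ≠ r) (k : K ≠ ⊤)
    (l : P ≤ K) (x : X ≤ K) (y : Y ≤ K) : X ≤ 𝐂 Y :=
  Yk_nil.cent_of_pi (h.mq_le a k l x) (h.mq_le b k l y) a.pi (b.pi.of_single_ne ne.symm)

structure Po (p : ℕ) (P : Subgroup G) : Prop extends Pt p P where
  p2 : p ≠ 2

structure MM (p q : ℕ) (P A : Subgroup G) : Prop where
  po : Po p P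
  mq : Mq p q P A
  ne_bot : A ≠ ⊥
  max : ∀ Q, Mq p q P Q → Q ⊓ A ≠ ⊥ → Q ≤ A

protected theorem Po.cj (h : Po p P) (g : G) : Po p (cj g P) := ⟨h.toPt.cj g, h.p2⟩

theorem Po.xq (h : Po p P) (m : Mq p q P Q) (q1 : Q ≠ ⊥) : Xq q P Q := by
  refine ⟨m.pi, m.nm, ?_⟩
  rw [← m.cm]
  refine (main h.prime (h.card ▸ h.p2) m.nm (h.cop m.pi') m.pi.sol).trans (Dg_le fun g hg =>
    le_O_of_forall (m.pi.prime q1) inf_le_right fun c hc => ?_)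
  obtain ⟨-, -, k, hk, -, e⟩ := h.fac m hg
  have l : Tg P g ≤ P ⊔ zpowers (c * k) := by rw [← e, ← Tg_mul hc]; exact Tg_le_sup
  have cK : c ∈ P ⊔ zpowers (c * k) := by
    simpa using mul_mem (mem_sup_right (mem_zpowers (c * k))) (inv_mem (l hk))
  have o := (inf_le_left (b := 𝐂 P)).trans (h.mq_le_O (h.tg m hg) (h.two _) le_sup_left l)
  exact (O_pi _ _).le (sup_le o (cj_le_of_norm ((O_normal _ _).norm cK) o))

theorem Po.ti (h : Po p P) (ne : q ≠ p) : TI p q P :=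
  ⟨ne, h.pi, h.F1, h.f2, fun K _ l => by
    by_cases e : ⁅𝐎 {q} K, P⁆ = ⊥
    · rw [e]; exact inf_le_left.trans bot_le
    · exact (h.xq (h.mq_top ne l) e).fx⟩

theorem Po.join (h : Po p P) (ne : q ≠ p) (a : Xq q P X) (b : Xq q P Y) (i : X ⊓ Y ≠ ⊥) :
    ∃ T, Mq p q P T ∧ ⁅X, P⁆ ≤ T ∧ ⁅Y, P⁆ ≤ T := by
  obtain ⟨T, t, l, l'⟩ := (h.ti ne).join a b i
  exact ⟨_, h.mq_comm ne t.pi t.nm, commutator_mono l le_rfl, commutator_mono l' le_rfl⟩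

theorem Po.exMM (h : Po p P) (m : Mq p q P Q) (q1 : Q ≠ ⊥) : ∃ A, MM p q P A ∧ Q ≤ A := by
  obtain ⟨A, l, a, mx⟩ := exists_maximal (P := Mq p q P) m
  refine ⟨A, ⟨h, a, ne_bot_mono q1 l, fun X x i => ?_⟩, l⟩
  obtain ⟨T, t, l1, l2⟩ := h.join m.ne (h.xq x (ne_bot_mono i inf_le_left))
    (h.xq a (ne_bot_mono q1 l)) i
  rw [x.cm] at l1
  rw [a.cm] at l2
  exact mx T t l2 ▸ l1

theorem Po.exMM' (h : Po p P) : ∃ q A, MM p q P A := by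
  obtain ⟨q, Q, m, q1⟩ := h.baer
  exact ⟨q, (h.exMM m q1).imp fun _ a => a.1⟩

namespace MM

protected theorem cj (a : MM p q P A) (g : G) : MM p q (cj g P) (cj g A) :=
  ⟨a.po.cj g, a.mq.cj g, by simpa using a.ne_bot, fun Q m i => le_cj_iff.2 (a.max _
    (by simpa using m.cj g⁻¹) (by rwa [Ne, ← cj_eq_bot (g := g), cj_inf, cj_cj_inv]))⟩

theorem cj' (a : MM p q P A) (hg : g ∈ 𝐍 A) : MM p q (cj g P) A := cj_of_norm hg ▸ a.cj g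

theorem proper (a : MM p q P A) : 𝐍 A ≠ ⊤ := a.po.normP a.mq.pi a.ne_bot

theorem norm (a : MM p q P A) : 𝐍 P ≤ 𝐍 A := by
  intro n hn
  obtain ⟨g, hg, t1⟩ : ∃ g ∈ A, Tg P g ≠ ⊥ := by
    by_contra c
    exact a.ne_bot (le_bot_iff.1 (a.mq.cm.ge.trans (comm_le_of_Tg fun g hg => by
      by_contra e; exact c ⟨g, hg, fun e' => e e'.le⟩)))
  obtain ⟨-, -, k, hk, -, e⟩ := a.po.fac a.mq hg
  have l : Tg P g ≤ P ⊔ zpowers (n * k) := by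
    rw [← e]
    refine Tg_le_of le_sup_left ?_
    rw [← cj_of_norm (inv_mem hn), cj_cj, ← mul_inv_rev, cj_of_norm (inv_mem hn)]
    exact cj_le_of_mem (inv_mem (mem_sup_right (mem_zpowers _))) le_sup_left
  have nK : n ∈ P ⊔ zpowers (n * k) := by
    simpa using mul_mem (mem_sup_right (mem_zpowers (n * k))) (inv_mem (l hk))
  have t := a.po.tg a.mq hg
  have tA := Tg_le_self a.mq.nm hg
  have l1 := a.max _ (a.po.mq_top a.mq.ne le_sup_left) (ne_bot_mono t1 (le_inf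
    (a.po.mq_le_top t (a.po.two _) le_sup_left l) tA))
  exact mem_norm_of_cj_le (a.max _ (a.mq.cj_norm hn) (ne_bot_mono (by simpa using t1) (le_inf
    (cj_mono n tA) ((a.po.mq_le_top (t.cj_norm hn) (a.po.two _) le_sup_left
      (cj_le_of_mem nK l)).trans l1))))

theorem cent (a : MM p q P A) : 𝐂 P ≤ 𝐍 A := (cent_le_norm P).trans a.norm

theorem z2 (a : MM p q P A) (hz : z ∈ 𝐙 A ⊓ 𝐂 P) (b : Mq p r P B) (ne : r ≠ q) (hg : g ∈ B)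
    (l : P ≤ cj g⁻¹ P ⊔ zpowers z) : g ∈ 𝐍 A := by
  obtain ⟨c, hc, k, hk, rfl, -⟩ := a.po.fac b hg
  refine mul_mem (a.cent hc) (cent_le_norm _ (cent_symm (a.mq.cm.ge.trans
    (comm_le_of_Tg fun y hy => ?_)) hk))
  obtain ⟨x, ex⟩ := (a.po.cj y⁻¹).cyc.exists_gen
  have cm : z * x = x * z := by
    have : z ∈ 𝐂 (cj y⁻¹ P) := by
      rw [← cj_cent, mem_cj_inv, mem_cent.1 hz.1.2 y hy, mul_inv_cancel_right]; exact hz.2
    exact (mem_cent.1 this x (ex ▸ mem_zpowers x)).symm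
  have cop : (orderOf z).Coprime (orderOf x) := PiNat.coprime' (a.mq.pi'.elt hz.1.1)
    ((a.po.cj y⁻¹).pi.elt (ex ▸ mem_zpowers x))
  have lL : P ≤ cj (c * k)⁻¹ P ⊔ zpowers (z * x) :=
    l.trans (sup_le_sup_left (zpowers_le.2 (mem_zpowers_mul_left cm cop)) _)
  exact a.po.mq_cent (a.po.tg a.mq hy) (a.po.tg b hg) ne.symm ((a.po.cj _).two _) lL (Tg_le_of lL
    (ex ▸ (zpowers_le.2 (mem_zpowers_mul_right cm cop)).trans le_sup_right)) (Tg_le_of lL le_sup_left)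

theorem fpf (a : MM p q P A) : 𝐙 A ⊓ 𝐂 P = ⊥ := by
  by_contra c
  obtain ⟨z, hz, z1⟩ := exists_mem_ne_one c
  have h := a.po
  refine h.notN a.proper a.mq.nm fun r Q m => ?_
  by_cases q1 : Q = ⊥
  · rw [q1]; exact bot_le
  obtain ⟨B, b, l⟩ := h.exMM m q1
  refine l.trans ?_
  by_cases e : r = q
  · subst e
    have n : ∀ {X}, MM p r P X → 𝐎 {r} (𝐂 P) ≤ 𝐍 X := fun x => (O_le _ _).trans x.cent
    obtain ⟨T, t, l1, l2⟩ := h.join m.ne ((h.xq a.mq a.ne_bot).sup le_rfl (n a))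
      ((h.xq b.mq b.ne_bot).sup le_rfl (n b)) (ne_bot_of_mem (mem_inf.2 ⟨mem_sup_left hz.1.1,
        mem_sup_right ((h.xq a.mq a.ne_bot).fx ⟨hz.1.1, hz.2⟩)⟩) z1)
    have l3 := a.max T t (ne_bot_mono a.ne_bot (le_inf (a.mq.cm.ge.trans
      ((commutator_mono le_sup_left le_rfl).trans l1)) le_rfl))
    exact norm_of_le (b.mq.cm.ge.trans ((commutator_mono le_sup_left le_rfl).trans (l2.trans l3)))
  have pz : P ≤ 𝐂₁ z := le_cent1_iff.2 hz.2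
  have cb : (B ⊔ P) ⊓ 𝐂₁ z ≤ 𝐍 A := by
    have n : P ≤ 𝐍 (B ⊓ 𝐂₁ z) := norm_inf b.mq.nm (norm_of_le pz)
    rw [sup_inf_right pz (Or.inr b.mq.nm), ← h.dec b.mq.pi'.inf_left n]
    exact sup_le (sup_le (norm_of_cent (h.mq_cent (h.mq_comm b.mq.ne b.mq.pi.inf_left n) a.mq e
      (h.cent1 z1) pz ((comm_le_left n).trans inf_le_right) (le_cent1_iff.2 hz.1.2)))
      (inf_le_right.trans a.cent)) a.mq.nm
  intro y hy
  have b2 := b.cj' (le_norm_self B hy)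
  set P₂ := cj y P
  set H := P₂ ⊔ zpowers z
  have zB : zpowers z ≤ 𝐍 B := zpowers_le.2 (b.cent hz.2)
  have zP : zpowers z ≤ 𝐍 P := zpowers_le.2 (cent_le_norm P hz.2)
  have sd := SDProd.mk' b.mq.nm (b.mq.pi'.inf_eq_bot' h.pi)
  have sd2 : SDProd B P₂ (B ⊔ P) := sd.cj_of_mem (mem_sup_left hy)
  have sd3 := sd2.inf_of_right_le (le_sup_left : P₂ ≤ H)
  have cop : (♯(zpowers z)).Coprime (♯(B ⊔ P)) := by
    have zq : PiGrp {q} (zpowers z) := a.mq.pi.le (zpowers_le.2 hz.1.1)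
    exact PiNat.coprime zq (sd.piGrp (b.mq.pi.of_single_ne e) (h.pi.of_single_ne a.mq.ne.symm))
  have nz : zpowers z ≤ 𝐍 (B ⊔ P) := norm_sup zB zP
  have so := Or.inl (b := Sol (B ⊔ P)) (abel_zpowers z).sol
  obtain ⟨P₄, s4, n4⟩ := exists_syl_inv (norm_inf nz (norm_of_le (le_sup_right : _ ≤ H)))
    (coprime_mono cop le_rfl inf_le_left) (Or.inl (abel_zpowers z).sol) p
  have s2 := sd3.hall_right b.mq.pi'.inf_left b2.po.pi
  obtain ⟨g, hg, e4⟩ := s2.syl_conj s4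
  obtain ⟨k, hk, w, hw, rfl⟩ := sd3.exists_mul hg
  rw [← cj_cj, cj_of_mem hw] at e4
  have s := sd.hall_right b.mq.pi' h.pi
  obtain ⟨g', hg', e5⟩ := s.syl_conj_inv (s.of_card (s4.le.trans inf_le_left)
    (by rw [e4, card_cj, card_cj])) nz cop so zP n4
  rw [cent_zpowers] at hg'
  have a4 := e5 ▸ a.cj' (cb hg')
  have b4 := e4 ▸ b2.cj' (le_norm_self B hk.1)
  have e6 : cj k⁻¹ P₄ = P₂ := by rw [e4, cj_inv_cj]
  have kA := a4.z2 (z := z) (mem_inf.2 ⟨hz.1, by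
    rw [e5, ← cj_cent, mem_cj, mul_assoc, ← mem_cent1.1 hg'.2, inv_mul_cancel_left]; exact hz.2⟩)
    b4.mq e hk.1 (by rw [e6]; exact s4.le.trans inf_le_right)
  have : g'⁻¹ * (k * y) ∈ 𝐍 A := a.norm (cj_eq_self.1 (by
    rw [← cj_cj, ← cj_cj, ← e4, e5, cj_inv_cj]))
  simpa using mul_mem (inv_mem kA) (mul_mem (cb hg') this)

theorem zm (a : MM p q P A) : Mq p q P (𝐙 A) := by
  have n := a.mq.nm.trans (norm_center A)
  have := a.po.dec a.mq.pi'.inf_left n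
  rw [a.fpf, sup_bot_eq] at this
  exact ⟨a.mq.ne, a.mq.pi.inf_left, n, this⟩

theorem z1 (a : MM p q P A) : 𝐙 A ≠ ⊥ := a.mq.pi.center_ne_bot a.ne_bot

theorem compat (a : MM p q P A) (b : MM p r P B) (a0 : Mq p q P A₀) (b0 : Mq p r P B₀) (la : A₀ ≤ A)
    (lb : B₀ ≤ B) (a1 : A₀ ≠ ⊥) (b1 : B₀ ≠ ⊥) (k : K ≠ ⊤) (l : P ≤ K) (x : A₀ ≤ K) (y : B₀ ≤ K) :
    A ≤ 𝐍 B := by
  have h := a.po
  by_cases e : q = r
  · subst e
    have t := h.mq_top a0.ne l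
    have l1 := a.max _ t (ne_bot_mono a1 (le_inf (h.mq_le_top a0 k l x) la))
    exact norm_of_le (b.max _ a.mq (ne_bot_mono b1 (le_inf ((h.mq_le_top b0 k l y).trans l1) lb)))
  have st : ∀ {s X Y W}, Mq p q P X → Mq p r P Y → Mq p s P W → W ≠ ⊥ → X ≤ 𝐍 W → Y ≤ 𝐍 W → X ≤ 𝐂 Y :=
    fun x y w w1 => h.mq_cent x y e (h.normP w.pi w1) w.nm
  have c1 := h.mq_cent a0 b0 e k l x y
  have c2 := st a.zm b0 a0 a1 (norm_of_cent (inf_le_right.trans (cent_anti la))) (norm_of_cent' c1)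
  have c3 := st a.zm b.zm b0 b1 (norm_of_cent c2) (norm_of_cent (inf_le_right.trans (cent_anti lb)))
  have c4 := st a.zm b.mq b.zm b.z1 (norm_of_cent c3) (center_normal B).norm
  exact norm_of_cent (st a.mq b.mq a.zm a.z1 (center_normal A).norm (norm_of_cent' c4))

theorem symm (a : MM p q P A) (b : MM p r P B) (h : A ≤ 𝐍 B) : B ≤ 𝐍 A :=
  b.compat a b.mq a.mq le_rfl le_rfl b.ne_bot a.ne_bot b.proper b.mq.nm (le_norm_self B) h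

theorem mem_le (a : MM p q P A) (a0 : Mq p q P A₀) (la : A₀ ≤ A) (a1 : A₀ ≠ ⊥) (k : K ≠ ⊤)
    (l : P ≤ K) (x : A₀ ≤ K) (m : Mq p r P Q) (y : Q ≤ K) : Q ≤ 𝐍 A := by
  by_cases q1 : Q = ⊥
  · rw [q1]; exact bot_le
  obtain ⟨B, b, lb⟩ := a.po.exMM m q1
  exact lb.trans (b.compat a m a0 lb la q1 a1 k l y x)

theorem Yk_le (a : MM p q P A) (a0 : Mq p q P A₀) (la : A₀ ≤ A) (a1 : A₀ ≠ ⊥) (k : K ≠ ⊤)
    (l : P ≤ K) (x : A₀ ≤ K) : Yk p K ≤ 𝐍 A :=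
  a.po.Yk_le l a.cent fun _ _ => a.mem_le a0 la a1 k l x

theorem incompat (a : MM p q P A) : ∃ r B, MM p r P B ∧ ¬ B ≤ 𝐍 A := by
  by_contra c
  refine a.po.notN a.proper a.mq.nm fun r Q m => ?_
  by_cases q1 : Q = ⊥
  · rw [q1]; exact bot_le
  obtain ⟨B, b, lb⟩ := a.po.exMM m q1
  by_contra e
  exact c ⟨r, B, b, fun e' => e (lb.trans e')⟩

end MM

theorem Po.exYk (h : Po p P) (k : K ≠ ⊤) (l : P ≤ K) : ∃ q A, MM p q P A ∧ Yk p K ≤ 𝐍 A := by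
  by_cases c : ∃ q Q, Mq p q P Q ∧ Q ≤ K ∧ Q ≠ ⊥
  · obtain ⟨q, Q, m, x, q1⟩ := c
    obtain ⟨A, a, la⟩ := h.exMM m q1
    exact ⟨q, A, a, a.Yk_le m la q1 k l x⟩
  · obtain ⟨q, A, a⟩ := h.exMM'
    refine ⟨q, A, a, h.Yk_le l a.cent fun r Q m x => ?_⟩
    by_contra e
    exact c ⟨r, Q, m, x, fun e' => e (e' ▸ bot_le)⟩

end CF.Fx3
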