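/-
The characterisation of `F₂(G)` for odd `p`: the final contradiction.
-/
import Cfsg.Agent.Fx3.G
import Cfsg.Agent.Coprime.Frobenius
import Cfsg.Agent.Coprime.Thompson

set_option autoImplicit false
set_option linter.unusedSectionVars false

namespace CF.Fx3
open Subgroup Cfsg CF.BG CF.BG2
open scoped commutatorElement

variable {G : Type*} [Group G] [Finite G] {A B A₁ A₂ E H J K L M N P P' Q R W X Y Z : Subgroup G}
  {p q r : ℕ} {x g z n : G}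

theorem MM.mq_of_le (a : MM p q P A) (l : W ≤ 𝐙 A) (n : P ≤ 𝐍 W) : Mq p q P W := by
  have := a.po.dec (a.zm.pi'.le l) n
  rw [eq_bot_mono a.fpf (inf_le_inf_right _ l), sup_bot_eq] at this
  exact ⟨a.mq.ne, a.zm.pi.le l, n, this⟩

theorem Po.lemU (h : Po p P) (h' : Po p P') (c : P' ≤ 𝐂 P) (m : Mq p q P Q) (e : Q ≤ 𝐂 P') :
    Q = ⊥ := by
  by_contra q1
  have key : ∀ {r B}, MM p r P' B → Mq p r P' (𝐙 B ⊓ 𝐂 Q) ∧ 𝐙 B ⊓ 𝐂 Q ≠ ⊥ := fun {r B} b => by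
    refine ⟨b.mq_of_le inf_le_left (norm_inf_cent b.zm.nm (norm_of_cent' e)), ?_⟩
    by_cases rq : q = r
    · subst rq
      exact m.pi.inf_cent_ne_bot b.zm.pi ((e.trans b.cent).trans (norm_center B)) b.z1
    · refine ne_bot_mono b.z1 (le_inf le_rfl (Yk_nil.cent_of_pi (h'.mq_le b.zm b.proper b.mq.nm
        (inf_le_left.trans (le_norm_self B))) (h.mq_le m b.proper ((cent_symm c).trans b.cent)
        (e.trans b.cent)) b.zm.pi (m.pi.of_single_ne rq)))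
  obtain ⟨r, A, a⟩ := h'.exMM'
  obtain ⟨s, B, b, nc⟩ := a.incompat
  exact nc (b.compat a (key b).1 (key a).1 (inf_le_left.trans inf_le_left) (inf_le_left.trans inf_le_left)
    (key b).2 (key a).2 (h.normP m.pi q1) (norm_of_cent' e) (norm_of_cent inf_le_right)
    (norm_of_cent inf_le_right))

theorem Po.mq_adj (h : Po p P) (h' : Po p P') (c : P' ≤ 𝐂 P) (m : Mq p q P Q) (n : P' ≤ 𝐍 Q) :
    Mq p q P' Q := by
  have n' : P ≤ 𝐍 (Q ⊓ 𝐂 P') := norm_inf_cent m.nm (norm_of_cent' c)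
  have e := h.lemU h' c (h.mq_comm m.ne m.pi.inf_left n') ((comm_le_left n').trans inf_le_right)
  refine ⟨m.ne, m.pi, n, le_antisymm (comm_le_left n) ?_⟩
  conv_lhs => rw [← m.cm, ← h'.dec m.pi' n, sup_comm]
  rw [comm_sup_cent (comm_eq_bot.1 e) (norm_commutator (norm_of_le inf_le_left)
    (norm_of_cent inf_le_right))]
  exact comm_le_left (norm_commutator m.nm (norm_of_cent' c))

theorem MM.adj (a : MM p q P A) (h' : Po p P') (c : P' ≤ 𝐂 P) : MM p q P' A := by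
  have m := a.po.mq_adj h' c a.mq (c.trans a.cent)
  obtain ⟨B, b, l⟩ := h'.exMM m a.ne_bot
  have := a.max B (h'.mq_adj a.po (cent_symm c) b.mq ((cent_symm c).trans b.cent))
    (ne_bot_mono a.ne_bot (le_inf l le_rfl))
  exact le_antisymm this l ▸ b

theorem Po.elem (h : Po p P) (h' : Po p P') (c : P' ≤ 𝐂 P) (ne : P ≠ P') : Elem p 2 (P ⊔ P') ⊤ :=
  (elem_one h.pr le_top h.card).sup (elem_one h.pr le_top h'.card) (cent_symm c)
    ((elem_one h.pr le_top h.card).inf_eq_bot (elem_one h.pr le_top h'.card) ne)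

theorem Po.ef (h : Po p P) (h' : Po p P') (c : P' ≤ 𝐂 P) (ne : P ≠ P') :
    ∃ q r A B e f, MM p q P A ∧ MM p r P B ∧ ¬ B ≤ 𝐍 A ∧ e ∈ P ⊔ P' ∧ f ∈ P ⊔ P' ∧ e ≠ 1 ∧ f ≠ 1 ∧
      𝐙 A ⊓ 𝐂₁ e ≠ ⊥ ∧ 𝐙 B ⊓ 𝐂₁ f ≠ ⊥ ∧ zpowers e ≠ zpowers f ∧ ¬ Po p (zpowers e) ∧
      ¬ Po p (zpowers f) := by
  have el := h.elem h' c ne
  have ep : ∀ {e}, e ∈ P ⊔ P' → e ∈ 𝐂 P := fun he => cent_anti le_sup_left (el.abel he)
  have key : ∀ {q A}, MM p q P A → ∃ e ∈ P ⊔ P', e ≠ 1 ∧ 𝐙 A ⊓ 𝐂₁ e ≠ ⊥ ∧ ¬ Po p (zpowers e) :=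
    fun {q A} a => by
      obtain ⟨e, he, e1, k⟩ := el.abel.exists_cent1_ne_bot el.self.not_cyc
        (sup_le a.zm.nm (a.adj h' c).zm.nm) (PiNat.coprime el.pi a.zm.pi') a.z1
      exact ⟨e, he, e1, k, fun o => k (by
        rw [← cent_zpowers]; exact (a.adj o (zpowers_le.2 (ep he))).fpf)⟩
  obtain ⟨q, A, a⟩ := h.exMM'
  obtain ⟨r, B, b, nc⟩ := a.incompat
  obtain ⟨e, he, e1, k, o⟩ := key a
  obtain ⟨f, hf, f1, k', o'⟩ := key b
  refine ⟨q, r, A, B, e, f, a, b, nc, he, hf, e1, f1, k, k', fun ef => nc ?_, o, o'⟩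
  have l : P ≤ 𝐂₁ e := le_cent1_iff.2 (ep he)
  have e' : 𝐂₁ f = 𝐂₁ e := by rw [← cent_zpowers, ← ef, cent_zpowers]
  rw [e'] at k'
  exact b.compat a (b.mq_of_le inf_le_left (norm_inf b.zm.nm (norm_of_le l)))
    (a.mq_of_le inf_le_left (norm_inf a.zm.nm (norm_of_le l))) (inf_le_left.trans inf_le_left)
    (inf_le_left.trans inf_le_left) k' k (h.cent1 e1) l inf_le_right inf_le_right

theorem Po.pc (J : Subgroup G) : ∀ {P P' : Subgroup G}, Po p P → Po p P' → P ⊔ P' = J → PiGrp {p} J →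
    P' ≤ 𝐂 P := by
  induction J using card_induction with
  | h J ih =>
  intro P P' h h' e k
  by_contra nc
  have key : ∀ {P P' : Subgroup G}, Po p P → Po p P' → P ⊔ P' = J → ¬ P' ≤ 𝐂 P → ∀ g ∈ J,
      cj g P ≤ 𝐂 P := fun {P P'} h h' e nc g hg => by
    have l := exists_lt_sup_cj k (lt_of_le_of_ne (e ▸ le_sup_left) fun e' =>
      nc ((le_sup_right.trans (e.trans e'.symm).le).trans h.le_cent)) hg
    exact ih _ (card_lt l) h (h.cj g) rfl (k.le l.le)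
  obtain ⟨x, rfl⟩ := h.cyc.exists_gen
  obtain ⟨y, rfl⟩ := h'.cyc.exists_gen
  have xJ : x ∈ J := e ▸ mem_sup_left (mem_zpowers x)
  have yJ : y ∈ J := e ▸ mem_sup_right (mem_zpowers y)
  have c1 := key h h' e nc y yJ
  have c2 := key h' h ((sup_comm _ _).trans e) (fun c => nc (cent_symm c)) x xJ
  have nn : y ∉ 𝐍 (zpowers x) := fun n => nc (cent_symm (h'.pi.cent_of_prime h.pr h.card (zpowers_le.2 n)))
  have ne : zpowers x ≠ cj y (zpowers x) := fun e => nn (cj_eq_self.1 e.symm)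
  have el := h.elem (h.cj y) c1 ne
  set c := ⁅x, y⁆ with hc
  have cE : c ∈ zpowers x ⊔ cj y (zpowers x) := by
    have := mul_mem (mem_sup_left (mem_zpowers x) : x ∈ zpowers x ⊔ cj y (zpowers x))
      (mem_sup_right (conj_mem_cj.2 (inv_mem (mem_zpowers x))))
    convert this using 1; rw [hc, commutatorElement_def]; group
  have cx : Commute c⁻¹ x := Commute.inv_left (el.abel.mul_comm cE (mem_sup_left (mem_zpowers x)))
  have cy : c ∈ 𝐂₁ y := by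
    rw [← cent_zpowers, hc, commutatorElement_def]
    exact mul_mem (c2 (conj_mem_cj.2 (mem_zpowers y))) (inv_mem (h'.le_cent (mem_zpowers y)))
  have yx : y * x * y⁻¹ = c⁻¹ * x := by rw [hc, commutatorElement_def]; group
  have c1' : c ≠ 1 := fun e => nn (cj_eq_self.1 (by rw [cj_zpowers, yx, e, inv_one, one_mul]))
  have ec := el.ab.elem_zpowers cE c1'
  have eE := (el.dprod_two (elem_one h.pr le_sup_left h.card) ec fun e => nn (mem_norm_of_cj_le (by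
    rw [cj_zpowers, yx, zpowers_le]
    exact mul_mem (inv_mem (e ▸ mem_zpowers c)) (mem_zpowers x))))
  have ln : ∀ {e}, e ∈ zpowers x ⊔ cj y (zpowers x) → e ≠ 1 → ¬ Po p (zpowers e) →
      zpowers e = zpowers c := fun {e} he e1 o => by
    obtain ⟨u, hu, w, hw, rfl⟩ := eE.sdprod.exists_mul he
    by_cases u1 : u = 1
    · rw [u1, one_mul] at e1 ⊢
      exact zpowers_eq_of_prime ec.card_prime hw e1
    exfalso
    have zu := zpowers_eq_of_prime h.prime hu u1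
    obtain ⟨i, rfl⟩ := mem_powers_iff_mem_zpowers.2 hu
    have yu : y * x ^ i * y⁻¹ = x ^ i * c⁻¹ ^ i := by
      rw [← conj_pow, yx, cx.mul_pow, (cx.pow_pow i i).eq]
    have dm : c⁻¹ ^ i ∈ zpowers c := pow_mem (inv_mem (mem_zpowers c)) i
    have d1 : c⁻¹ ^ i ≠ 1 := fun e => nn (cj_eq_self.1 (by rw [← zu, cj_zpowers, yu, e, mul_one]))
    have dy : y * c⁻¹ ^ i * y⁻¹ = c⁻¹ ^ i := by
      rw [← mem_cent1.1 (zpowers_le.2 cy dm), mul_inv_cancel_right]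
    rw [← zpowers_eq_of_prime ec.card_prime dm d1] at hw
    obtain ⟨j, rfl⟩ := mem_powers_iff_mem_zpowers.2 hw
    have : ∀ j : ℕ, y ^ j * x ^ i * (y ^ j)⁻¹ = x ^ i * (c⁻¹ ^ i) ^ j := fun j => by
      induction j with
      | zero => simp
      | succ j ih =>
        calc _ = y * (y ^ j * x ^ i * (y ^ j)⁻¹) * y⁻¹ := by group
          _ = (y * x ^ i * y⁻¹) * (y * c⁻¹ ^ i * y⁻¹) ^ j := by rw [ih, conj_pow]; group
          _ = _ := by rw [yu, dy]; group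
    refine o ?_
    simp only at zu ⊢
    rw [← this, ← cj_zpowers, zu]
    exact h.cj _
  obtain ⟨-, -, -, -, e, f, -, -, -, he, hf, e1, f1, -, -, ef, o, o'⟩ := h.ef (h.cj y) c1 ne
  exact ef ((ln he e1 o).trans (ln hf f1 o').symm)

theorem Po.false_adj (h : Po p P) (h' : Po p P') (c : P' ≤ 𝐂 P) (ne : P ≠ P') : False := by
  obtain ⟨q, r, A, B, e, f, ma, mb, nc, he, hf, e1, f1, k, k', ef, -, -⟩ := h.ef h' c ne
  have el := h.elem h' c ne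
  obtain ⟨a, ha, a1⟩ := exists_mem_ne_one k
  obtain ⟨b, hb, b1⟩ := exists_mem_ne_one k'
  have h1 := h.cj a⁻¹
  have h2 := h.cj b⁻¹
  have kk := h1.two' h2.toPt
  obtain ⟨t, ht, pt⟩ := h1.fb h2.toPt kk le_sup_left le_sup_right
  obtain ⟨s, C, m1, lY⟩ := h1.exYk kk le_sup_left
  have m2 := (m1.adj (h2.cj t) (Po.pc _ h1 (h2.cj t) rfl pt)).cj' (inv_mem (lY ht))
  rw [cj_inv_cj] at m2
  have ce : ∀ {a e}, e ∈ P ⊔ P' → a ∈ 𝐂₁ e → e ∈ 𝐂 (cj a⁻¹ P) := fun {a e} he ha => by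
    rw [← cj_cent, mem_cj_inv, mem_cent1.1 ha, mul_inv_cancel_right]
    exact cent_anti le_sup_left (el.abel he)
  have pC : P ≤ 𝐍 C := le_sup_left.trans ((el.dprod_two (el.ab.elem_zpowers he e1)
    (el.ab.elem_zpowers hf f1) ef).sup.ge.trans (sup_le (zpowers_le.2 (m1.cent (ce he ha.2)))
      (zpowers_le.2 (m2.cent (ce hf hb.2)))))
  have t1 : ∀ {q A a}, MM p q P A → a ∈ 𝐙 A → a ≠ 1 → Tg P a ≠ ⊥ := fun {q A a} m ha a1 e =>
    a1 (eq_one_of_mem_bot m.fpf ⟨ha, mem_cent.2 fun y hy => by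
      have := eq_one_of_mem_bot e (mem_Tg hy)
      rwa [inv_mul_eq_one, eq_mul_inv_iff_mul_eq, eq_comm] at this⟩)
  exact nc (mb.compat ma (h.tg mb.mq hb.1.1) (h.tg ma.mq ha.1.1) (Tg_le_self mb.mq.nm hb.1.1)
    (Tg_le_self ma.mq.nm ha.1.1) (t1 mb hb.1 b1) (t1 ma ha.1 a1) m1.proper pC (Tg_le_of pC m2.mq.nm)
    (Tg_le_of pC m1.mq.nm))

theorem Po.iso (h : Po p P) (h' : Po p P') (k : PiGrp {p} (P ⊔ P')) : P = P' := by
  by_contra ne
  obtain ⟨X, x, ne', c⟩ := h.adj h'.toPt k ne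
  exact h.false_adj ⟨x, h.p2⟩ c ne'

theorem Po.exists_cj (h : Po p P) (h' : Po p P') (k : K ≠ ⊤) (l : P ≤ K) (l' : P' ≤ K) :
    ∃ t ∈ Yk p K, P' = cj t P := by
  obtain ⟨t, ht, e⟩ := h'.fb h.toPt k l' l
  exact ⟨t, ht, h'.iso (h.cj t) e⟩

theorem Po.line (h : Po p P) (h' : Po p P') : ∃ q A, MM p q P A ∧ MM p q P' A := by
  obtain ⟨t, ht, e⟩ := h.exists_cj h' (h.two' h'.toPt) le_sup_left le_sup_right
  obtain ⟨q, A, a, l⟩ := h.exYk (h.two' h'.toPt) le_sup_left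
  exact ⟨q, A, a, e ▸ a.cj' (l ht)⟩

theorem MM.line_le (a₁ : MM p q P A₁) (a₂ : MM p r P A₂) (x : Po p X) (ne : P ≠ X) (l₁ : X ≤ 𝐍 A₁)
    (l₂ : X ≤ 𝐍 A₂) (w : Po p W) (l : W ≤ 𝐍 A₁) : W ≤ 𝐍 A₂ := by
  have h := a₁.po
  obtain ⟨s, Q, m, lQ, q1⟩ : ∃ q Q, Mq p q P Q ∧ Q ≤ P ⊔ X ∧ Q ≠ ⊥ := by
    by_contra c
    obtain ⟨t, ht, e⟩ := h.exists_cj x (h.two' x.toPt) le_sup_left le_sup_right
    refine ne (e.trans (cj_of_cent (h.Yk_le le_sup_left le_rfl (fun r Q m l => ?_) ht))).symm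
    by_contra e
    exact c ⟨r, Q, m, l, fun e' => e (e' ▸ bot_le)⟩
  obtain ⟨B, b, lB⟩ := h.exMM m q1
  have key : ∀ {q A}, MM p q P A → X ≤ 𝐍 A → A ≤ 𝐍 B := fun a l => a.compat b a.mq m le_rfl lB
    a.ne_bot q1 a.proper a.mq.nm (le_norm_self _) (lQ.trans (sup_le a.mq.nm l))
  have l3 := a₂.compat a₁ a₂.mq a₁.mq le_rfl le_rfl a₂.ne_bot a₁.ne_bot b.proper b.mq.nm
    (key a₂ l₂) (key a₁ l₁)
  obtain ⟨t, ht, rfl⟩ := h.exists_cj w a₁.proper a₁.mq.nm l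
  exact cj_le_of_mem (a₂.Yk_le a₂.mq le_rfl a₂.ne_bot a₁.proper a₁.mq.nm l3 ht) a₂.mq.nm

theorem MM.fix (a : MM p q P A) (h' : Po p P') (ne : P ≠ P') (l : P' ≤ 𝐍 A) (n1 : n ∈ 𝐍 P)
    (n2 : n ∈ 𝐍 P') (x : Po p X) (nl : ¬ X ≤ 𝐍 A) : n ∈ 𝐍 X := by
  by_contra c
  obtain ⟨_, A₁, a₁, b₁⟩ := a.po.line x
  obtain ⟨_, A₂, a₂, b₂⟩ := h'.line x
  exact nl (a₁.line_le a h' ne (b₂.line_le b₁ (x.cj n) (fun e => c (cj_eq_self.1 e.symm))
    (cj_le_of_mem (a₂.norm n2) b₂.mq.nm) (cj_le_of_mem (a₁.norm n1) b₁.mq.nm) h' a₂.mq.nm) l x b₁.mq.nm)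

theorem Po.fix_all (h : Po p P) (h' : Po p P') (ne : P ≠ P') (n1 : n ∈ 𝐍 P) (n2 : n ∈ 𝐍 P')
    (x : Po p X) : n ∈ 𝐍 X := by
  obtain ⟨q, A, a, a'⟩ := h.line h'
  by_cases l : X ≤ 𝐍 A
  swap
  · exact a.fix h' ne a'.mq.nm n1 n2 x l
  by_cases e : P = X
  · exact e ▸ n1
  obtain ⟨g, hg⟩ : ∃ g, ¬ cj g P ≤ 𝐍 A := by
    by_contra c
    exact a.proper (h.gen _ fun g => by by_contra e; exact c ⟨g, e⟩)
  obtain ⟨r, B, b, b'⟩ := h.line (h.cj g)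
  exact b.fix (h.cj g) (fun e => hg (e ▸ a.mq.nm)) b'.mq.nm n1
    (a.fix h' ne a'.mq.nm n1 n2 (h.cj g) hg) x fun l' => hg (b.line_le a x e l' l (h.cj g) b'.mq.nm)

theorem Po.false (h : Po p P) : False := by
  have np := h.normP h.pi h.ne_bot
  have key : ∀ n : G, (∀ X, Po p X → n ∈ 𝐍 X) → n = 1 := fun n k => by
    by_contra n1
    refine h.cent1 n1 (h.gen _ fun g y hy => mem_cent1.2 ?_)
    by_contra c
    have x := h.cj g
    have u : y * n * y⁻¹ * n⁻¹ ∈ cj g P := by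
      simpa only [mul_assoc] using mul_mem hy (conj_mem_of_norm (k _ x) (inv_mem hy))
    have e := zpowers_eq_of_prime x.prime u fun e => c (by rwa [mul_inv_eq_one, mul_inv_eq_iff_eq_mul] at e)
    refine x.normP x.pi x.ne_bot (eq_top_iff.2 fun a _ => cj_eq_self.1 ((x.cj a).iso x
      ((x.cj a).pi.sup x.pi (Or.inr ?_))))
    conv_lhs => rw [← e]
    refine zpowers_le.2 (mul_mem ?_ (inv_mem (k _ (x.cj a))))
    have := k _ ((x.cj a).cj y⁻¹)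
    rwa [← cj_norm, mem_cj_inv] at this
  obtain ⟨K, -, n, -, k1, r⟩ := CF.Coprime.frob_exists_kernel (CF.Coprime.isFrobeniusComplement_iff.2
    ⟨ne_bot_mono h.ne_bot (le_norm_self P), np, fun g x hx x1 e => by
      by_contra c
      exact x1 (key x fun X => h.fix_all (h.cj g⁻¹) (fun e => c (by
        simpa using inv_mem (cj_eq_self.1 e.symm))) hx (by rwa [← cj_norm, mem_cj_inv]))⟩)
  have nK := (normalIn_top.2 n).norm
  exact h.F1 K (r.isNilpotent (le_top.trans nK) (ne_bot_mono h.ne_bot (le_norm_self P)))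
    k1 (top_le_iff.1 nK)

end CF.Fx3
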