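/-
Flavell's characterisation of `F₂(G)` by two-generated subgroups.
-/
import Cfsg.Agent.Fx3.F
import Cfsg.Agent.Fx3.H

set_option autoImplicit false
set_option linter.unusedSectionVars false

namespace CF.Fx3
open Subgroup Cfsg CF.BG CF.BG2
open scoped commutatorElement

universe u

variable {G : Type*} [Group G] [Finite G] {K U V : Subgroup G} {p r s : ℕ} {x y : G}

def Hyp (x : G) : Prop := ∀ y, x ∈ F2s (zpowers x ⊔ zpowers y)

theorem Hyp.of_mem (h : Hyp x) (hy : y ∈ zpowers x) : Hyp y := fun z =>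
  inf_F2s_le (sup_le_sup_right (zpowers_le.2 hy) _) ⟨mem_sup_left (mem_zpowers y),
    zpowers_le.2 (h z) hy⟩

theorem qt_F2s_le (n : K ≤ 𝐍 V) : qt V (F2s K) ≤ F2s (qt V K) := by
  refine le_F2s ((F_normal K).qt V) ((F2s_normal K).qt V) ((F_nil K).qt V) ?_
  have n' := (F2s_normal K).le.trans (F_normal K).norm
  obtain ⟨m, e⟩ := (nil_qt_iff n').1 (F2s_nil K)
  exact (nil_qt_iff (qt_norm V n')).2 ⟨m, by
    rw [← qt_lcs ((F2s_normal K).le.trans n)]; exact qt_mono V e⟩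

structure Rd (p : ℕ) (x : G) : Prop where
  pi : PiElt {p} x
  gen : ∀ K, (∀ g, cj g (zpowers x) ≤ K) → K = ⊤
  f2 : ∀ K, K ≠ ⊤ → x ∈ K → x ∈ Lk p K
  two : ∀ y, zpowers x ⊔ zpowers y ≠ ⊤

theorem Rd.eq_top (h : Rd p x) (n : ⊤ ≤ 𝐍 K) (hx : x ∈ K) : K = ⊤ :=
  h.gen K fun g => cj_le_of_norm (n (mem_top g)) (zpowers_le.2 hx)

theorem Rd.stepA (h : Rd p x) (rp : r ≠ p) (rs : s ≠ r) (a : Abelem s V) (nV : ⊤ ≤ 𝐍 V)
    (nU : ⊤ ≤ 𝐍 U) (i : PiNat {r} (V.relIndex U)) (k : K ≠ ⊤) (l : V ≤ K) (hx : x ∈ K)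
    (hy : y ∈ U ⊓ K) : ⁅y, x⁆ ∈ 𝐂 V := by
  have w : U ⊓ Lk p K ≤ 𝐂 V := le_of_forall_syl' fun t _ _ T e => by
    by_cases tr : t = r
    · subst tr
      exact (le_O_of_le_Yk (le_Yk_of_le_Lk (e.le.trans inf_le_right) (e.pi.of_single_ne rp)) e.pi).trans
        (O_cent_normal ⟨l, le_top.trans nV⟩ (a.pi.of_single_ne rs))
    · exact ((e.pi.of_single_ne tr).le_of_relIndex (e.le.trans inf_le_left) (le_top.trans nV)
        i.compl_compl).trans a.abel
  exact w ⟨comm_le_left (le_top.trans nU) (commutator_mem_commutator hy.1 (mem_top x)),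
    comm_le_right (Lk_normal p K).norm (commutator_mem_commutator hy.2 (h.f2 K k hx))⟩

theorem Rd.stepB (h : Rd p x) (rs : s ≠ r) (a : Abelem s V) (m : MinN V ⊤) (l : V ≤ U)
    (nU : ⊤ ≤ 𝐍 U) (i : PiNat {r} (V.relIndex U)) (t : zpowers x ⊔ zpowers y ⊔ V = ⊤) :
    U ≤ 𝐂 V := by
  by_contra nc
  have nV : ∀ X : Subgroup G, X ≤ 𝐍 V := fun X => le_top.trans m.norm
  have f : V ⊓ 𝐂 U = ⊥ := (m.inf_eq_bot_or_le (norm_cent nU)).resolve_right fun e => nc (cent_symm e)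
  let K := fun v : G => zpowers x ⊔ zpowers (y * v)
  have kx : ∀ v, x ∈ K v := fun v => mem_sup_left (mem_zpowers x)
  have ky : ∀ v, y * v ∈ K v := fun v => mem_sup_right (mem_zpowers _)
  have k1 : ∀ v ∈ V, K v ⊔ V = ⊤ := fun v hv => top_le_iff.1 (t.ge.trans (sup_le (sup_le
    (le_sup_left.trans le_sup_left) (zpowers_le.2 (by
      simpa using mul_mem (mem_sup_left (ky v) : _ ∈ K v ⊔ V) (mem_sup_right (inv_mem hv))))) le_sup_right))
  have k2 : ∀ v ∈ V, V ⊓ K v = ⊥ := fun v hv => (m.eq_bot_or inf_le_left ((k1 v hv).ge.trans (sup_le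
    (norm_inf (nV _) (le_norm_self _)) (a.abel.le_norm inf_le_left)))).resolve_right fun e =>
      h.two (y * v) (by rw [← k1 v hv]; exact (sup_eq_left.2 (e ▸ inf_le_right)).symm)
  have k3 : ∀ v ∈ V, SDProd V (U ⊓ K v) U := fun v hv => ⟨nV _, by
    rw [← inf_sup_left l (Or.inr (nV _)), sup_comm, k1 v hv, inf_top_eq],
    eq_bot_mono (k2 v hv) (inf_le_inf_left _ inf_le_right)⟩
  have k4 : ∀ v ∈ V, Syl r (U ⊓ K v) U := fun v hv => (k3 v hv).hall_right (a.pi.of_single_ne rs) (by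
    have := (k3 v hv).relIndex_left
    rw [PiGrp, ← this]; exact i)
  have k5 : ∀ v ∈ V, 𝐍 (U ⊓ K v) = K v := fun v hv => by
    have n : K v ≤ 𝐍 (U ⊓ K v) := norm_inf (le_top.trans nU) (le_norm_self _)
    refine le_antisymm ((le_inf le_rfl (le_top.trans (k1 v hv).ge)).trans ?_) n
    rw [inf_sup_left n (Or.inl (nV _)), inf_comm]
    refine sup_le le_rfl (le_trans ?_ (f.le.trans bot_le))
    refine le_inf inf_le_left ?_
    conv_rhs => rw [← (k3 v hv).sup]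
    exact le_cent_sup (inf_le_left.trans a.abel) (inf_norm_le_cent (nV _) (k3 v hv).inf')
  have cj' : ∀ {g w : G}, w ∈ V → g⁻¹ * w * g ∈ V := fun hw => conj_mem_of_norm' (nV ⊤ (mem_top _)) hw
  have su : Function.Surjective fun w : ↥(V ⊓ 𝐂₁ x) =>
      (⟨y⁻¹ * w * y * (w : G)⁻¹, mul_mem (cj' w.2.1) (inv_mem w.2.1)⟩ : V) := fun ⟨v, hv⟩ => by
    obtain ⟨g, hg, e⟩ := (k4 1 (one_mem _)).syl_conj (k4 v hv)
    obtain ⟨w, hw, c, hc, rfl⟩ := (k3 1 (one_mem _)).exists_mul hg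
    rw [← cj_cj, cj_of_mem hc] at e
    have e' : K v = cj w (K 1) := by rw [← k5 v hv, e, ← cj_norm, k5 1 (one_mem _)]
    have e1 := eq_one_of_mem_bot (k2 1 (one_mem _)) (x := x⁻¹ * (w⁻¹ * x * w)) (mem_inf.2 ⟨by
      simpa only [mul_assoc] using mul_mem (cj' (g := x) (inv_mem hw)) hw,
      mul_mem (inv_mem (kx 1)) (mem_cj.1 (e' ▸ kx v))⟩)
    have e2 := eq_one_of_mem_bot (k2 1 (one_mem _)) (x := (y * 1)⁻¹ * (w⁻¹ * (y * v) * w)) (mem_inf.2 ⟨by
      simpa only [mul_assoc, mul_one] using mul_mem (mul_mem (cj' (g := y) (inv_mem hw)) hv) hw,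
      mul_mem (inv_mem (ky 1)) (mem_cj.1 (e' ▸ ky v))⟩)
    refine ⟨⟨w, hw, mem_cent1.2 ?_⟩, Subtype.ext ?_⟩
    · calc w * x = w * x * (x⁻¹ * (w⁻¹ * x * w)) := by rw [e1, mul_one]
        _ = _ := by group
    · calc y⁻¹ * w * y * w⁻¹ = y⁻¹ * w * y * ((y * 1)⁻¹ * (w⁻¹ * (y * v) * w)) * w⁻¹ := by
            rw [e2, mul_one]
        _ = v := by group
  have e := eq_of_card_le (inf_le_left : V ⊓ 𝐂₁ x ≤ V) (Nat.card_le_card_of_surjective _ su)
  exact nc (le_top.trans (h.eq_top (norm_cent m.norm) (le_cent1_iff.1 (e ▸ inf_le_right))).ge)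

theorem Rd.mem (h : Rd p x) (a : Abelem s V) (m : MinN V ⊤)
    (hx : qe V x ∈ Lk p (qt V ⊤)) : x ∈ F2s (⊤ : Subgroup G) := by
  have nV : V ⊴ ⊤ := ⟨le_top, m.norm⟩
  set Y := Yk p (qt V ⊤)
  have yn : Y ⊴ qt V ⊤ := Yk_normal _ _
  have on : ∀ π, qp V (𝐎 π Y) ⊴ ⊤ := fun π => (yn.O π).qp_of_qt nV
  have eL : qp V (Lk p (qt V ⊤)) = ⊤ := h.eq_top ((Lk_normal _ _).qp_of_qt nV).norm
    (mem_qp.2 ⟨m.norm (mem_top x), hx⟩)
  have iY : PiNat {p} ((qp V Y).relIndex ⊤) := by rw [← eL, relIndex_qp_qp]; exact Lk_idx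
  have sp : ∀ π, qp V Y = qp V (𝐎 π Y) ⊔ qp V (𝐎 πᶜ Y) := fun π => by
    rw [← qp_sup, (Yk_nil.dprod π).sup]
  have key : ∀ r, s ≠ r → qp V (𝐎 {r} Y) ≤ 𝐂 V := fun r rs => by
    by_cases rp : r = p
    · rw [O_of_pi' (rp ▸ Yk_pi), qp_bot]; exact a.abel
    set U := qp V (𝐎 {r} Y)
    have i : PiNat {r} (V.relIndex U) := by rw [relIndex_qp]; exact O_pi _ _
    by_contra nc
    have nC : ⊤ ≤ 𝐍 (𝐂 V) := norm_cent m.norm
    have c : centMod U (𝐂 V) = ⊤ := h.eq_top (norm_centMod (on _).norm nC) ⟨nC (mem_top x), fun y hy => by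
      rw [← commutatorElement_inv]
      exact inv_mem (h.stepA rp rs a m.norm (on _).norm i (fun t => nc (h.stepB rs a m (le_qp _)
        (on _).norm i t)) le_sup_right (mem_sup_left (mem_sup_left (mem_zpowers x)))
        ⟨hy, mem_sup_left (mem_sup_right (mem_zpowers y))⟩)⟩
    obtain ⟨S, hS, xS⟩ := exists_syl_le (le_top : zpowers x ≤ ⊤) h.pi.zpowers
    have ys : qp V Y ⊔ S = ⊤ := top_le_iff.1 (relIndex_eq_one.1 ((iY.dvd (relIndex_dvd_left _
      le_sup_left)).eq_one (hS.idx.dvd (relIndex_dvd_left _ le_sup_right))))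
    have t : qp V (𝐎 {r}ᶜ Y) ⊔ S ⊔ 𝐂 V = ⊤ := by
      refine h.eq_top (ys.ge.trans (sup_le ((sp {r}).le.trans (sup_le (norm_of_comm_le ?_)
        (norm_of_le (le_sup_left.trans le_sup_left)))) (norm_of_le (le_sup_right.trans le_sup_left))))
        (mem_sup_left (mem_sup_right (xS (mem_zpowers x))))
      exact ((commutator_mono (le_top.trans c.ge) le_rfl).trans (comm_centMod_le _ _)).trans le_sup_right
    have p1 : PiGrp {r}ᶜ (qt (𝐂 V) ⊤) := by
      rw [← t, qt_sup_right (le_top.trans nC)]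
      exact ((PiGrp.qp (a.pi.of_single_ne rs) (O_pi _ _)).sup (hS.pi.of_single_ne (Ne.symm rp))
        (Or.inr (le_top.trans (on _).norm))).qt _
    exact nc ((qt_eq_bot (le_top.trans nC)).1 (PiGrp.eq_bot ((piGrp_qt_iff (le_top.trans nC)).2
      (i.dvd (relIndex_dvd_left _ a.abel))) (p1.le (qt_mono _ le_top))))
  have c : qp V (𝐎 {s}ᶜ Y) ≤ 𝐂 V := by
    refine (le_qt_iff ⟨a.abel, cent_le_norm V⟩).1 ((Yk_nil.mono (O_le _ _)).le_of_forall fun r hr d => ?_)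
    exact (O_le_O_of_normal (O_normal _ _) _).trans ((le_qt_iff ⟨a.abel, cent_le_norm V⟩).2
      (key r (Ne.symm (O_pi _ _ r hr d))))
  have nl : Nil (qp V Y) := by
    rw [sp {s}]
    exact (PiGrp.qp a.pi (O_pi _ _)).nil.sup (nil_of_qt_center (le_inf (le_qp _) (cent_symm c)) (by
      rw [qt_qp]; exact Yk_nil.mono (O_le _ _))) (le_top.trans (on _).norm) (le_top.trans (on _).norm)
  have yn' := yn.qp_of_qt nV
  exact le_F2s yn' (NormalIn.refl ⊤) nl ((piGrp_qt_iff yn'.norm).2 iY).nil (mem_top x)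

theorem main2 (n : ℕ) : ∀ {G : Type u} [Group G] [Finite G] {x : G}, Nat.card G < n → Hyp x →
    x ∈ F2s (⊤ : Subgroup G) := by
  induction n with
  | zero => intro _ _ _ _ h; omega
  | succ n ih =>
  intro G _ _ x hn hx
  have sub : ∀ K : Subgroup G, K ≠ ⊤ → ∀ x ∈ K, Hyp x → x ∈ F2s K := fun K k x hx h => by
    have := ih (G := K) (x := ⟨x, hx⟩) (by
      have := card_lt (lt_top_iff_ne_top.2 k); rw [card_top'] at this; omega) fun y =>
        mem_F2s_of_map K.subtype_injective (by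
          rw [Subgroup.map_sup, MonoidHom.map_zpowers, MonoidHom.map_zpowers]; exact h y)
    have := map_F2s_le _ K.subtype (mem_map_of_mem _ this)
    rwa [map_top_subtype] at this
  have key : ∀ (p m : ℕ) (x : G), p.Prime → orderOf x < m → PiElt {p} x → Hyp x → x ∈ F2s ⊤ := by
    intro p m
    induction m with
    | zero => intro x _ h; omega
    | succ m ihm =>
    intro x hp hm e h
    by_contra nx
    have rd : Rd p x := ⟨e, fun K k => by
      by_contra c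
      have l : normalClosure {x} ≤ K := (closure_le _).2 fun y hy => by
        obtain ⟨a, rfl, g, rfl⟩ := Group.mem_conjugatesOfSet_iff.1 hy |>.imp fun a b =>
          (⟨b.1, isConj_iff.1 b.2⟩ : a ∈ ({x} : Set G) ∧ ∃ c, c * a * c⁻¹ = y)
        exact k g (conj_mem_cj.2 (mem_zpowers _))
      exact nx (F2s_le_of_normal (normalIn_top.2 inferInstance) (sub _ (proper_mono c l) x
        (subset_normalClosure rfl) h)), fun K k l => mem_Lk (sub K k x l h) e,
      fun y t => nx (t ▸ h y)⟩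
    by_cases f : 𝐅 (⊤ : Subgroup G) = ⊥
    · have x1 : x ≠ 1 := fun e => nx (e ▸ one_mem _)
      have d : p ∣ orderOf x := by
        rw [← Nat.card_zpowers]; exact e.zpowers.dvd_card (ne_bot_of_mem (mem_zpowers x) x1)
      have := ihm (x ^ p) hp (by
        have := Nat.div_lt_self (orderOf_pos x) hp.one_lt
        rw [orderOf_pow_of_dvd hp.ne_zero d]; omega) (e.pow p) (h.of_mem (pow_mem (mem_zpowers x) p))
      have l : F2s ⊤ ≤ 𝐅 (⊤ : Subgroup G) := le_F (F2s_normal _) ((F2s_nil ⊤).of_qt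
        (le_top.trans (F_normal _).norm) (by rw [f, bot_inf_eq]))
      have o := orderOf_eq_of_pow hp (eq_one_of_mem_bot f (l this)) x1
      have pt : Pt p (zpowers x) := ⟨hp, by rw [Nat.card_zpowers, o], fun N k N1 t =>
        N1 (eq_bot_mono f (le_F ⟨le_top, t.ge⟩ k)), rd.gen,
        fun K k l => zpowers_le.2 (rd.f2 K k (zpowers_le.1 l)), rd.two⟩
      by_cases p2 : p = 2
      · subst p2; exact pt.false_two
      · exact Po.false ⟨pt, p2⟩
    obtain ⟨V, l, m⟩ := exists_minN f (F_normal ⊤).norm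
    obtain ⟨s, -, a⟩ := m.exists_abelem ((F_nil _).mono l).sol
    have nV : ∀ g, g ∈ 𝐍 V := fun g => m.norm (mem_top g)
    have t : qt V ⊤ = ⊤ := by rw [← top_le_iff.1 m.norm, qt_norm_eq_top]
    refine nx (rd.mem a m (mem_Lk ?_ (e.qe (nV x))))
    rw [t]
    refine ih (by
      have := card_qt_lt (⟨le_top, m.norm⟩ : V ⊴ ⊤) m.ne_bot
      rw [t, card_top', card_top'] at this; omega) fun y => ?_
    obtain ⟨y, -, rfl⟩ := exists_qe y
    rw [← qt_zpowers (nV x), ← qt_zpowers (nV y), ← qt_sup (fun g _ => nV g) fun g _ => nV g]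
    exact qt_F2s_le (fun g _ => nV g) (qe_mem_qt (h y) (nV x))
  exact (abel_zpowers x).nil.le_of_forall (fun p hp _ y hy => key p _ y hp (Nat.lt_succ_self _)
    ((O_pi _ _).elt hy) (hx.of_mem (O_le _ _ hy))) (mem_zpowers x)

end CF.Fx3
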